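import Cfsg.Agent.TwoSmall.Minimal
import Cfsg.Agent.Invol.FourGroup

/-!
Solvable groups minimal with a noncyclic abelian subgroup of order 8.
-/

set_option autoImplicit false

open Cfsg
open scoped commutatorElement

namespace Cfsg.Agent.TwoSmall

variable {S : Type*} [Group S] [Finite S]

theorem quat_conj : (∀ g h : QuaternionGroup 2, g * g ≠ 1 →
      h = 1 ∨ h = g ∨ h = g * g ∨ h = g * g * g ∨ g * h * g⁻¹ = h * (g * g)) ∧
    (∀ g h : QuaternionGroup 2, g * g ≠ 1 → h * h = 1 → h = 1 ∨ h = g * g) := by decide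

/-- A self-centralizing normal quaternion group of order 8 meets no noncyclic abelian group of
order 8 in a subgroup of order 4. -/
theorem quat_normal_contra {T A : Subgroup S} (hTn : T.Normal) (e : T ≃* QuaternionGroup 2)
    (hCT : Subgroup.centralizer (T : Set S) ≤ T) (hAc : IsMulCommutative A)
    (hAcyc : ¬ IsCyclic A) (hA8 : Nat.card A = 8) (h4 : 4 ≤ Nat.card ↥(A ⊓ T)) : False := by
  haveI : Fact (Nat.Prime 2) := ⟨Nat.prime_two⟩
  obtain ⟨i, hiA, hiT, hii⟩ : ∃ i, i ∈ A ∧ i ∈ T ∧ i * i ≠ 1 := by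
    by_contra hall
    push_neg at hall
    let g : ↥(A ⊓ T) → QuaternionGroup 2 := fun x => e ⟨x, x.2.2⟩
    have hg : ∀ x, g x = 1 ∨ g x = QuaternionGroup.a 2 := fun x => quat_facts.2.2 _ (by
      rw [← map_mul, show (⟨x, x.2.2⟩ : T) * ⟨x, x.2.2⟩ = 1 from
        Subtype.ext (hall x x.2.1 x.2.2), map_one])
    have h2 : Nat.card ↥(A ⊓ T) ≤ 2 := by
      have hinj : Function.Injective (fun x : ↥(A ⊓ T) => decide (g x = 1)) := by
        intro x y hxy
        have e1 : g x = g y := by
          rcases hg x with hx | hx <;> rcases hg y with hy | hy <;> simp [hx, hy] at hxy ⊢ <;>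
            exact absurd hxy (by decide)
        exact Subtype.ext (congrArg (fun t : T => (t : S)) (e.injective e1))
      exact le_trans (Nat.card_le_card_of_injective _ hinj) (by simp)
    omega
  set z := i * i with hzdef
  have hzT : z ∈ T := mul_mem hiT hiT
  have hzA : z ∈ A := mul_mem hiA hiA
  set gi := e ⟨i, hiT⟩ with hgi
  have hgi2 : gi * gi ≠ 1 := fun h => hii (congrArg Subtype.val
    (e.injective (show e (⟨i, hiT⟩ * ⟨i, hiT⟩) = e 1 by rw [map_mul, map_one]; exact h)))
  have hzz : z * z = 1 := by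
    have h : (⟨z, hzT⟩ : T) * ⟨z, hzT⟩ = 1 := e.injective (by
      rw [map_mul, map_one, show (⟨z, hzT⟩ : T) = ⟨i, hiT⟩ * ⟨i, hiT⟩ from rfl, map_mul]
      exact quat_facts.1 _)
    exact congrArg Subtype.val h
  have hinv : ∀ t ∈ T, t * t = 1 → t = 1 ∨ t = z := by
    intro t ht htt
    rcases quat_conj.2 gi (e ⟨t, ht⟩) hgi2 (by
      rw [← map_mul, show (⟨t, ht⟩ : T) * ⟨t, ht⟩ = 1 from Subtype.ext htt, map_one]) with h | h
    · exact Or.inl (congrArg Subtype.val (e.injective (h.trans (map_one e).symm)))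
    · exact Or.inr (congrArg Subtype.val (e.injective (h.trans (map_mul e _ _).symm)))
  -- an involution of `A` outside `T`
  obtain ⟨a, haA, haa, haT⟩ : ∃ a ∈ A, a * a = 1 ∧ a ∉ T := by
    by_contra hall
    push_neg at hall
    apply hAcyc
    have hA2 : IsPGroup 2 A := IsPGroup.of_card (n := 3) (by rw [hA8]; norm_num)
    haveI := hAc
    have htop := Invol.isCyclic_of_unique_involution hA2 ⊤ inferInstance
      (⟨z, hzA⟩ : A) (fun b _ hb => by
        have hbb : (b : S) * b = 1 := by
          have := pow_orderOf_eq_one b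
          rw [hb, pow_two] at this
          exact congrArg Subtype.val this
        rcases hinv b (hall b b.2 hbb) hbb with h | h
        · exfalso
          rw [show b = 1 from Subtype.ext h, orderOf_one] at hb
          norm_num at hb
        · exact Subtype.ext h)
    exact isCyclic_of_surjective (Subgroup.topEquiv (G := A)).toMonoidHom
      (Subgroup.topEquiv (G := A)).surjective
  have hai : a * i = i * a := comm_apply hAc haA hiA
  have haz : a * z = z * a := comm_apply hAc haA hzA
  set P := Subgroup.zpowers i with hP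
  have hPT : P ≤ T := Subgroup.zpowers_le.2 hiT
  have hoi : orderOf i = 4 := by
    refine orderOf_eq_prime_pow (p := 2) (n := 1) ?_ ?_
    · rw [pow_one, pow_two]; exact hii
    · rw [show 2 ^ (1 + 1) = 2 + 2 from rfl, pow_add, pow_two]; exact hzz
  have hidx : (P.subgroupOf T).index = 2 := by
    have h := Subgroup.card_mul_index (P.subgroupOf T)
    have hq : Nat.card T = 8 := by
      rw [Nat.card_congr e.toEquiv, Nat.card_eq_fintype_card, QuaternionGroup.card]
    rw [Nat.card_congr (Subgroup.subgroupOfEquivOfLe hPT).toEquiv, hP, Nat.card_zpowers, hoi,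
      hq] at h
    rw [hP]
    omega
  obtain ⟨j, hjT, hjP⟩ : ∃ j ∈ T, j ∉ P := by
    by_contra hall
    push_neg at hall
    rw [Subgroup.subgroupOf_eq_top.2 hall, Subgroup.index_top] at hidx
    omega
  have hwT : a * j * a⁻¹ ∈ T := hTn.conj_mem j hjT a
  have hacomm : ∀ t ∈ P, Commute a t := by
    rintro t ⟨n, rfl⟩
    exact (show Commute a i from hai).zpow_right n
  have hwP : a * j * a⁻¹ ∉ P := by
    intro h
    apply hjP
    have h2 := (hacomm _ h).eq
    have e2 : a * j * a⁻¹ = j := by
      have e3 : a * (a * j * a⁻¹) * a⁻¹ = a * j * a⁻¹ := by rw [h2, mul_inv_cancel_right]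
      have e4 : a * j = j * a := by
        calc a * j = (a * j * a⁻¹) * a := by group
          _ = (a * (a * j * a⁻¹) * a⁻¹) * a := by rw [e3]
          _ = (a * a) * j * (a * a)⁻¹ * a := by group
          _ = j * a := by rw [haa]; group
      rw [e4, mul_inv_cancel_right]
    rwa [e2] at h
  set u := j⁻¹ * (a * j * a⁻¹) with hu
  have huP : u ∈ P := Subgroup.mem_subgroupOf.1
    ((Subgroup.mul_mem_iff_of_index_two hidx (a := ⟨j⁻¹, inv_mem hjT⟩) (b := ⟨_, hwT⟩)).2
      (iff_of_false (fun h => hjP (by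
        have := Subgroup.mem_subgroupOf.1 h
        simpa using this)) (fun h => hwP (Subgroup.mem_subgroupOf.1 h))))
  have hjw : a * j * a⁻¹ = j * u := by rw [hu]; group
  have hau : a * u * a⁻¹ = u := mul_inv_eq_iff_eq_mul.2 (hacomm u huP).eq
  have huu : u * u = 1 := by
    have h : j = j * u * u := by
      calc j = (a * a) * j * (a * a)⁻¹ := by rw [haa]; group
        _ = a * (a * j * a⁻¹) * a⁻¹ := by group
        _ = a * (j * u) * a⁻¹ := by rw [hjw]
        _ = (a * j * a⁻¹) * (a * u * a⁻¹) := by group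
        _ = j * u * u := by rw [hjw, hau]
    have h2 : j * 1 = j * (u * u) := by rw [mul_one, ← mul_assoc, ← h]
    exact (mul_left_cancel h2).symm
  have hgen : ∀ g : S, (g * i = i * g) → g * j * g⁻¹ = j → g ∈ T := by
    intro g hgi' hgj
    refine hCT (Subgroup.mem_centralizer_iff.2 fun t ht => ?_)
    have hgP : ∀ t ∈ P, Commute g t := by
      rintro t ⟨n, rfl⟩
      exact (show Commute g i from hgi').zpow_right n
    by_cases htP : t ∈ P
    · exact (hgP t htP).eq.symm
    have h := Subgroup.mem_subgroupOf.1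
      ((Subgroup.mul_mem_iff_of_index_two hidx (a := ⟨j⁻¹, inv_mem hjT⟩) (b := ⟨t, ht⟩)).2
        (iff_of_false (fun h => hjP (by
          have := Subgroup.mem_subgroupOf.1 h
          simpa using this)) (fun h => htP (Subgroup.mem_subgroupOf.1 h))))
    change j⁻¹ * t ∈ P at h
    have hcj : Commute g j := mul_inv_eq_iff_eq_mul.1 hgj
    have := hcj.mul_right (hgP _ h)
    rw [show j * (j⁻¹ * t) = t by group] at this
    exact this.eq.symm
  rcases hinv u (hPT huP) huu with h1 | h1
  · exact haT (hgen a hai (by rw [hjw, h1, mul_one]))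
  have hijj : i * j * i⁻¹ = j * z := by
    rcases quat_conj.1 gi (e ⟨j, hjT⟩) hgi2 with h | h | h | h | h
    · exact absurd (show j = 1 from congrArg Subtype.val (e.injective (h.trans (map_one e).symm)))
        (fun h' => hjP (h' ▸ one_mem P))
    · exact absurd (show j = i from congrArg Subtype.val (e.injective h))
        (fun h' => hjP (h' ▸ Subgroup.mem_zpowers i))
    · rw [hgi, ← map_mul] at h
      exact absurd (show j = i * i from congrArg Subtype.val (e.injective h))
        (fun h' => hjP (h' ▸ mul_mem (Subgroup.mem_zpowers i) (Subgroup.mem_zpowers i)))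
    · rw [hgi, ← map_mul, ← map_mul] at h
      exact absurd (show j = i * i * i from congrArg Subtype.val (e.injective h))
        (fun h' => hjP (h' ▸ mul_mem (mul_mem (Subgroup.mem_zpowers i) (Subgroup.mem_zpowers i))
          (Subgroup.mem_zpowers i)))
    · rw [hgi, ← map_inv, ← map_mul, ← map_mul, ← map_mul, ← map_mul] at h
      exact congrArg Subtype.val (e.injective h)
  refine haT ?_
  have h3 : a * i ∈ T := hgen (a * i) (by rw [mul_assoc, ← mul_assoc i a i, ← hai, mul_assoc]) (by
    calc a * i * j * (a * i)⁻¹ = a * (i * j * i⁻¹) * a⁻¹ := by group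
      _ = (a * j * a⁻¹) * (a * z * a⁻¹) := by rw [hijj]; group
      _ = j * (z * z) := by rw [hjw, h1, mul_inv_eq_iff_eq_mul.2 haz, mul_assoc]
      _ = j := by rw [hzz, mul_one])
  have := mul_mem h3 (inv_mem hiT)
  simpa using this

theorem comm_of_le_centralizer_of_gen {G : Subgroup S} {W : Subgroup S} {c : S}
    (hW : IsMulCommutative W) (hc : c ∈ Subgroup.centralizer (W : Set S))
    (hG : G ≤ W ⊔ Subgroup.zpowers c) : IsMulCommutative G := by
  have h : IsMulCommutative ↥(W ⊔ Subgroup.zpowers c) := by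
    exact Modules.comm_sup hW (Modules.comm_zpowers c) (Subgroup.zpowers_le.2 hc)
  exact Modules.comm_mono hG h

/-- The classification. -/
theorem classify [Group.IsSolvable S] (hO : pPrimeCore 2 S = ⊥)
    (h8 : ∃ A : Subgroup S, IsMulCommutative A ∧ ¬ IsCyclic A ∧ Nat.card A = 8)
    (hmin : ∀ R : Subgroup S, R ≠ ⊤ → (∃ k : ℕ, R.index = 2 ^ k) →
      ¬ ∃ A : Subgroup S, A ≤ R ∧ IsMulCommutative A ∧ ¬ IsCyclic A ∧ Nat.card A = 8)
    (X : Sylow 2 S) :
    (X : Subgroup S).Normal ∧
      (IsMulCommutative ↥(X : Subgroup S) ∨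
        (IsExtraspecial 2 ↥(X : Subgroup S) ∧ 32 ≤ Nat.card ↥(X : Subgroup S)) ∨
        (∃ (X₀ : Subgroup S) (k : ℕ), X₀ ≤ (X : Subgroup S) ∧ X₀.relIndex (X : Subgroup S) = 2 ∧
          Nonempty (↥X₀ ≃* QuaternionGroup (2 ^ (k + 1))) ∧
          X₀ ⊔ ((X : Subgroup S) ⊓ Subgroup.centralizer (X₀ : Set S)) = (X : Subgroup S)) ∨
        (IsSpecial 2 ↥(X : Subgroup S) ∧ Nat.card ↥(Subgroup.center ↥(X : Subgroup S)) = 4)) := by
  haveI : Fact (Nat.Prime 2) := ⟨Nat.prime_two⟩
  set XS := (X : Subgroup S) with hXS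
  have hX2 : IsPGroup 2 XS := X.isPGroup'
  -- a noncyclic abelian subgroup of order 8 inside `X`
  obtain ⟨A, hAX, hAc, hAcyc, hA8⟩ : ∃ A : Subgroup S, A ≤ XS ∧ IsMulCommutative A ∧
      ¬ IsCyclic A ∧ Nat.card A = 8 := by
    obtain ⟨A0, h1, h2, h3⟩ := h8
    obtain ⟨P, hP⟩ := (IsPGroup.of_card (p := 2) (n := 3) (G := A0) (by rw [h3]; norm_num)).exists_le_sylow
    obtain ⟨g, hg⟩ := MulAction.exists_smul_eq S P X
    refine ⟨A0.map (MulAut.conj g).toMonoidHom, ?_, Modules.comm_map _ h1, fun h => h2 ?_, ?_⟩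
    · rw [hXS, ← hg, PSolv.coe_sylow_smul]
      exact Subgroup.map_mono hP
    · let eA := A0.equivMapOfInjective (MulAut.conj g).toMonoidHom (MulAut.conj g).injective
      exact isCyclic_of_surjective eA.symm.toMonoidHom eA.symm.surjective
    · rw [Subgroup.card_map_of_injective (MulAut.conj g).injective, h3]
  -- a Hall subgroup of odd order
  obtain ⟨H, hH1, hH2⟩ := Hall.exists_isPiHall (G := S) {r : ℕ | r ≠ 2}
  have hHodd : Odd (Nat.card H) := by
    rw [← Nat.not_even_iff_odd, even_iff_two_dvd]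
    exact fun h => hH1 2 Nat.prime_two h rfl
  obtain ⟨k, hk⟩ : ∃ k, H.index = 2 ^ k := ⟨_, Nat.eq_prime_pow_of_unique_prime_dvd
    Subgroup.index_ne_zero_of_finite fun {d} hd hdd => by
      by_contra hne
      exact hH2 d hd hne hdd⟩
  have hXcard : Nat.card XS = H.index := by
    rw [hXS, X.card_eq_multiplicity, ← Subgroup.card_mul_index H, hk,
      Nat.factorization_mul Nat.card_pos.ne' (pow_ne_zero _ two_ne_zero),
      Finsupp.add_apply, Nat.Prime.factorization_pow Nat.prime_two, Finsupp.single_eq_same,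
      Nat.factorization_eq_zero_of_not_dvd
        (fun h => hH1 2 Nat.prime_two h rfl), zero_add]
  have hkey : ∀ Y : Subgroup S, Y ≤ XS → Y ≠ XS → H ≤ Subgroup.normalizer (Y : Set S) →
      Small Y := by
    intro Y hY hYX hHY B hB hBc hB8
    by_contra hBcyc
    refine hmin (Y ⊔ H) (fun htop => hYX ?_) ?_
      ⟨B, hB.trans le_sup_left, hBc, hBcyc, hB8⟩
    · haveI : Y.Normal := Subgroup.normalizer_eq_top_iff.1 (top_le_iff.1 (htop ▸
        sup_le Subgroup.le_normalizer hHY))
      have h := PSolv.card_sup_dvd_of_normal H Y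
      rw [sup_comm, htop, Subgroup.card_top, ← Subgroup.card_mul_index H, ← hXcard] at h
      have h' := Nat.le_of_dvd Nat.card_pos (Nat.dvd_of_mul_dvd_mul_left Nat.card_pos h)
      exact Subgroup.eq_of_le_of_card_ge hY h'
    · have h := Subgroup.index_dvd_of_le (le_sup_right : H ≤ Y ⊔ H)
      rw [hk] at h
      obtain ⟨i, -, hi⟩ := (Nat.dvd_prime_pow Nat.prime_two).1 h
      exact ⟨i, hi⟩
  -- the 2-core
  set T := pCore 2 S with hTdef
  haveI hTn : T.Normal := pCore_normal 2 S
  have hTX : T ≤ XS := PSolv.pCore_le_sylow X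
  have hT2 : IsPGroup 2 T := PSolv.isPGroup_pCore 2 S
  have hCT : Subgroup.centralizer (T : Set S) ≤ T :=
    PSolv.centralizer_pCore_le (PSolv.isPSolvable_of_isSolvable inferInstance) hO
  have hHbot : H ≤ T → XS = ⊤ := by
    intro h
    have h1 : Nat.card H = 1 := by
      obtain ⟨i, hi⟩ := IsPGroup.iff_card.1 (hT2.to_le h)
      rcases i with _ | i
      · simpa using hi
      · exact absurd (hHodd) (by rw [hi, Nat.not_odd_iff_even]; exact (even_two.pow_of_ne_zero (by omega)))
    refine Subgroup.eq_top_of_card_eq _ ?_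
    rw [hXcard, ← Subgroup.card_mul_index H, h1, one_mul]
  have hTX' : T = XS := by
    by_contra hne
    have hTs : Small T := hkey T hTX hne (by rw [Subgroup.normalizer_eq_top]; exact le_top)
    have hHT : ¬ H ≤ Subgroup.centralizer (T : Set S) := by
      intro h
      have hX := hHbot (h.trans hCT)
      haveI : XS.Normal := by rw [hX]; infer_instance
      exact hne (le_antisymm hTX (PSolv.le_pCore inferInstance hX2))
    have hat := hTs.atom hT2 hHodd (by rw [Subgroup.normalizer_eq_top]; exact le_top) hHT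
    have hidx := hat.two_group_aux hX2 (by rw [Subgroup.normalizer_eq_top]; exact le_top)
    rw [sup_eq_left.2 hCT] at hidx
    have hAi : T.relIndex A ≤ 2 :=
      (Subgroup.relIndex_le_of_le_right hAX Subgroup.index_ne_zero_of_finite).trans hidx
    have h4 : 4 ≤ Nat.card ↥(A ⊓ T) := by
      have e := Subgroup.relIndex_mul_relIndex ⊥ (A ⊓ T) A bot_le inf_le_left
      rw [Subgroup.relIndex_bot_left, Subgroup.relIndex_bot_left, Subgroup.inf_relIndex_left,
        hA8] at e
      nlinarith
    rcases hat with ⟨hc, hT4, -⟩ | ⟨⟨e⟩⟩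
    · have hle : T ≤ A := by
        have h := Subgroup.eq_of_le_of_card_ge (inf_le_right : A ⊓ T ≤ T) (by omega)
        exact h.ge.trans inf_le_left
      have hAT : A ≤ T := fun a ha => hCT (Subgroup.mem_centralizer_iff.2 fun t ht =>
        comm_apply hAc (hle ht) ha)
      have := Subgroup.card_le_of_le hAT
      omega
    · exact quat_normal_contra hTn e hCT hAc hAcyc hA8 h4
  have hXn : XS.Normal := hTX' ▸ hTn
  haveI := hXn
  have hCX : Subgroup.centralizer (XS : Set S) ≤ XS := hTX' ▸ hCT
  refine ⟨hXn, ?_⟩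
  by_cases hXc : IsMulCommutative XS
  · exact Or.inl hXc
  right
  have hHX : H ≤ Subgroup.normalizer (XS : Set S) := by
    rw [Subgroup.normalizer_eq_top]; exact le_top
  have hnc : ¬ H ≤ Subgroup.centralizer (XS : Set S) := by
    intro h
    have hX := hHbot (hTX'.symm ▸ h.trans hCX)
    refine hmin A (fun hA => hXc ?_) ?_ ⟨A, le_rfl, hAc, hAcyc, hA8⟩
    · exact Modules.comm_mono (hA ▸ le_top) hAc
    · have e := Subgroup.card_mul_index A
      obtain ⟨i, hi⟩ := IsPGroup.iff_card.1 hX2
      rw [hX, Subgroup.card_top] at hi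
      rw [hi] at e
      obtain ⟨r, -, hr⟩ := (Nat.dvd_prime_pow Nat.prime_two).1 (Dvd.intro_left _ e)
      exact ⟨r, hr⟩
  set W : Subgroup S := ⁅XS, H⁆ with hW
  have hWX : W ≤ XS := Coprime.commutator_le_of_le_normalizer hHX
  by_cases hWeq : W = XS
  · -- the special case
    obtain ⟨hphi, hder, hcard⟩ := special_of_minimal hX2 hHodd hHX hWeq hkey hXc
    have hfr : frattini XS = Subgroup.center XS :=
      Subgroup.map_injective XS.subtype_injective (by rw [center_eq]; exact hphi)
    have hco : commutator XS = Subgroup.center XS :=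
      Subgroup.map_injective XS.subtype_injective (by
        rw [center_eq, Subgroup.map_subtype_commutator]; exact hder)
    have hsp : IsSpecial 2 XS := ⟨hX2, hfr, hco⟩
    have hcc : Nat.card (Subgroup.center XS) = Nat.card ↥(XS ⊓ Subgroup.centralizer (XS : Set S)) := by
      rw [← center_eq, Subgroup.card_map_of_injective XS.subtype_injective]
    rcases hcard with h2 | h4
    · left
      refine ⟨⟨hsp, hcc.trans h2⟩, ?_⟩
      obtain ⟨i, hi⟩ := IsPGroup.iff_card.1 hX2
      by_contra hlt
      have hi5 : i ≤ 4 := by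
        by_contra h
        refine hlt (hi ▸ le_trans (by norm_num) (Nat.pow_le_pow_right (by norm_num) (show 5 ≤ i by omega)))
      have hA8' : 8 ≤ Nat.card XS := hA8 ▸ Subgroup.card_le_of_le hAX
      have hAne : A ≠ XS := fun e => hXc (e ▸ hAc)
      have hi4 : Nat.card XS = 16 := by
        have hne8 : Nat.card XS ≠ 8 := fun e =>
          hAne (Subgroup.eq_of_le_of_card_ge hAX (by omega))
        rw [hi] at hne8 hA8' ⊢
        interval_cases i <;> first | rfl | (exfalso; revert hne8 hA8'; decide)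
      have hidx : (A.subgroupOf XS).index = 2 := by
        have e := Subgroup.card_mul_index (A.subgroupOf XS)
        rw [Nat.card_congr (Subgroup.subgroupOfEquivOfLe hAX).toEquiv, hA8, hi4] at e
        omega
      obtain ⟨g, hg, hgA⟩ := SetLike.not_le_iff_exists.1
        (fun h => hAne (le_antisymm hAX h))
      set Zc := XS ⊓ Subgroup.centralizer (XS : Set S) with hZc
      have hval : ∀ a ∈ A, g * a * g⁻¹ * a⁻¹ ∈ Zc := fun a ha => hder.le
        (Subgroup.commutator_mem_commutator hg (hAX ha))
      let f : A →* Zc :=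
        { toFun := fun a => ⟨g * a * g⁻¹ * (a : S)⁻¹, hval a a.2⟩
          map_one' := Subtype.ext (by simp)
          map_mul' := fun a b => Subtype.ext (by
            have hb := Subgroup.mem_centralizer_iff.1 (Subgroup.mem_inf.1 (hval b b.2)).2
              (a : S)⁻¹ (inv_mem (hAX a.2))
            change g * ((a : S) * b) * g⁻¹ * ((a : S) * b)⁻¹ = _
            calc g * ((a : S) * b) * g⁻¹ * ((a : S) * b)⁻¹
                = (g * a * g⁻¹) * ((g * b * g⁻¹ * (b : S)⁻¹) * (a : S)⁻¹) := by group
              _ = (g * a * g⁻¹) * ((a : S)⁻¹ * (g * b * g⁻¹ * (b : S)⁻¹)) := by rw [hb]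
              _ = _ := by simp [mul_assoc]) }
      have hkerZ : f.ker.map A.subtype ≤ Zc := by
        rintro _ ⟨a, ha, rfl⟩
        refine ⟨hAX a.2, Subgroup.mem_centralizer_iff.2 fun x hx => ?_⟩
        have hga : Commute g (a : S) := mul_inv_eq_iff_eq_mul.1
          (mul_inv_eq_one.1 (congrArg Subtype.val ha))
        by_cases hxA : x ∈ A
        · exact comm_apply hAc hxA a.2
        have hprod := Subgroup.mem_subgroupOf.1 ((Subgroup.mul_mem_iff_of_index_two hidx
          (a := ⟨g⁻¹, inv_mem hg⟩) (b := ⟨x, hx⟩)).2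
          (iff_of_false (fun h => hgA (by
            have := Subgroup.mem_subgroupOf.1 h
            simpa using this)) (fun h => hxA (Subgroup.mem_subgroupOf.1 h))))
        change g⁻¹ * x ∈ A at hprod
        have h1 : Commute (g⁻¹ * x) (a : S) := comm_apply hAc hprod a.2
        have h2 := hga.mul_left h1
        rw [show g * (g⁻¹ * x) = x by group] at h2
        exact h2.eq
      have hker4 : 4 ≤ Nat.card f.ker := by
        have e := Subgroup.card_mul_index f.ker
        have hr : f.ker.index ≤ 2 := by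
          rw [Subgroup.index_ker, ← h2]
          exact Subgroup.card_le_card_group _
        rw [hA8] at e
        nlinarith
      have := Subgroup.card_le_of_le hkerZ
      rw [Subgroup.card_map_of_injective A.subtype_injective, h2] at this
      omega
    · exact Or.inr (Or.inr ⟨hsp, hcc.trans h4⟩)
  -- `W` is small
  have hHW : H ≤ Subgroup.normalizer (W : Set S) := Coprime.le_normalizer_commutator_right XS H
  have hXW : XS ≤ Subgroup.normalizer (W : Set S) := Coprime.le_normalizer_commutator_left XS H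
  have hWs := hkey W hWX hWeq hHW
  have hcop := coprime_card hHodd hX2
  have hWc : ¬ H ≤ Subgroup.centralizer (W : Set S) := by
    intro h
    refine hnc (Coprime.le_centralizer_of_commutator_commutator_eq_bot hHX hcop ?_)
    exact Subgroup.commutator_eq_bot_iff_le_centralizer.2 (Subgroup.le_centralizer_iff.1 h)
  have hat := hWs.atom (hX2.to_le hWX) hHodd hHW hWc
  set C := XS ⊓ Subgroup.centralizer (H : Set S) with hC
  have hXWC : W ⊔ C = XS := Coprime.commutator_sup_centralizer hHX hcop (Or.inl inferInstance)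
  have hHC : H ≤ Subgroup.normalizer (C : Set S) := by
    intro h hh
    have key : ∀ u ∈ H, ∀ c ∈ C, u * c * u⁻¹ ∈ C := fun u hu c hc => by
      rw [mul_inv_eq_iff_eq_mul.2 (Subgroup.mem_centralizer_iff.1 hc.2 u hu)]
      exact hc
    rw [Subgroup.mem_normalizer_iff]
    refine fun c => ⟨key h hh c, fun hc => ?_⟩
    have := key h⁻¹ (inv_mem hh) _ hc
    simpa [mul_assoc] using this
  have hCW := hat.le_sup_centralizer (hX2.to_le inf_le_left) (inf_le_left.trans hXW) hHodd hHW
    hHC hWc
  have hXWCW : XS ≤ W ⊔ Subgroup.centralizer (W : Set S) := hXWC ▸ sup_le le_sup_left hCW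
  rcases hat with ⟨hWab, hW4, hWsq⟩ | ⟨⟨e⟩⟩
  · -- four-group: `X` would be abelian
    exfalso
    have hWle : W ≤ Subgroup.centralizer (W : Set S) := fun a ha =>
      Subgroup.mem_centralizer_iff.2 fun b hb => comm_apply hWab hb ha
    rw [sup_eq_right.2 hWle] at hXWCW
    have hinf : ∀ c ∈ C, c ∈ W → c = 1 := by
      intro c hc hcW
      by_contra hc1
      refine hWc fun h hh => Subgroup.mem_centralizer_iff.2 fun v hv => ?_
      exact (commute_of_fix_four hW4 (hHW hh) (odd_orderOf hHodd hh) hcW hc1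
        (Subgroup.mem_centralizer_iff.1 hc.2 h hh) hv).eq.symm
    have hCne : ∃ c ∈ C, c ∉ W := by
      by_contra hall
      push_neg at hall
      refine hWeq (le_antisymm hWX ?_)
      rw [← hXWC]
      exact sup_le le_rfl hall
    obtain ⟨c0, hc0, hc0W⟩ := hCne
    obtain ⟨c, hc, hcW, hc2, -⟩ := exists_sq_mem (hX2.to_le inf_le_left) hc0 hc0W
    have hcc : c * c = 1 := hinf _ (mul_mem hc hc) hc2
    have hcC : c ∈ Subgroup.centralizer (W : Set S) := hXWCW hc.1
    set Y := W ⊔ Subgroup.zpowers c with hY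
    have hYX : Y ≤ XS := sup_le hWX (Subgroup.zpowers_le.2 hc.1)
    have hHY : H ≤ Subgroup.normalizer (Y : Set S) := by
      intro h hh
      rw [Subgroup.mem_normalizer_iff_map_conj_eq, hY, Subgroup.map_sup,
        Subgroup.mem_normalizer_iff_map_conj_eq.1 (hHW hh), MonoidHom.map_zpowers]
      change W ⊔ Subgroup.zpowers (h * c * h⁻¹) = _
      rw [mul_inv_eq_iff_eq_mul.2 (Subgroup.mem_centralizer_iff.1 hc.2 h hh)]
    by_cases hYeq : Y = XS
    · exact hXc (comm_of_le_centralizer_of_gen hWab hcC hYeq.ge)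
    · exact hcW ((hkey Y hYX hYeq hHY).centralizer_inf_le (hX2.to_le hYX) le_sup_left hWab hW4
        (fun a ha => by rw [show (4 : ℕ) = 2 + 2 by norm_num, pow_add, pow_two, hWsq a ha, mul_one])
        (Subgroup.mem_sup_right (Subgroup.mem_zpowers c)) hcC
        (by rw [show (4 : ℕ) = 2 + 2 by norm_num, pow_add, pow_two, hcc, mul_one]))
  · -- quaternion group
    refine Or.inr (Or.inl ⟨W, 0, hWX, ?_, ⟨e⟩, ?_⟩)
    swap
    · refine le_antisymm (sup_le hWX inf_le_left) fun x hx => ?_
      set N := Subgroup.normalizer (W : Set S)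
      haveI : ((Subgroup.centralizer (W : Set S)).subgroupOf N).Normal := inferInstance
      have hmem : (⟨x, hXW hx⟩ : N) ∈ W.subgroupOf N ⊔
          (Subgroup.centralizer (W : Set S)).subgroupOf N := by
        rw [← Subgroup.subgroupOf_sup Subgroup.le_normalizer (Subgroup.centralizer_le_normalizer _)]
        exact Subgroup.mem_subgroupOf.2 (hXWCW hx)
      obtain ⟨a, ha, b, hb, hab⟩ := Subgroup.mem_sup_of_normal_right.1 hmem
      have e' : (a : S) * (b : S) = x := congrArg Subtype.val hab
      rw [← e']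
      refine mul_mem (Subgroup.mem_sup_left ha) (Subgroup.mem_sup_right (Subgroup.mem_inf.2 ⟨?_, hb⟩))
      rw [show (b : S) = (a : S)⁻¹ * x by rw [← e']; group]
      exact mul_mem (inv_mem (hWX ha)) hx
    -- the index is two
    have hDne : ∃ d ∈ XS ⊓ Subgroup.centralizer (W : Set S), d ∉ W := by
      by_contra hall
      push_neg at hall
      refine hWeq (le_antisymm hWX fun x hx => ?_)
      set N := Subgroup.normalizer (W : Set S)
      haveI : ((Subgroup.centralizer (W : Set S)).subgroupOf N).Normal := inferInstance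
      have hmem : (⟨x, hXW hx⟩ : N) ∈ W.subgroupOf N ⊔
          (Subgroup.centralizer (W : Set S)).subgroupOf N := by
        rw [← Subgroup.subgroupOf_sup Subgroup.le_normalizer (Subgroup.centralizer_le_normalizer _)]
        exact Subgroup.mem_subgroupOf.2 (hXWCW hx)
      obtain ⟨a, ha, b, hb, hab⟩ := Subgroup.mem_sup_of_normal_right.1 hmem
      have e' : (a : S) * (b : S) = x := congrArg Subtype.val hab
      rw [← e']
      refine mul_mem ha (hall _ (Subgroup.mem_inf.2 ⟨?_, hb⟩))
      rw [show (b : S) = (a : S)⁻¹ * x by rw [← e']; group]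
      exact mul_mem (inv_mem (hWX ha)) hx
    obtain ⟨d0, hd0, hd0W⟩ := hDne
    obtain ⟨d, hd, hdW, hd2, -⟩ := exists_sq_mem (hX2.to_le inf_le_left) hd0 hd0W
    have hd4 : d ^ 4 = 1 := by
      have h1 : (e ⟨d * d, hd2⟩) * e ⟨d * d, hd2⟩ = 1 := by
        have hc' : ∀ g, g * e ⟨d * d, hd2⟩ = e ⟨d * d, hd2⟩ * g := fun g => by
          obtain ⟨g, rfl⟩ := e.surjective g
          rw [← map_mul, ← map_mul]
          exact congrArg e (Subtype.ext (Subgroup.mem_centralizer_iff.1 (mul_mem hd.2 hd.2) g g.2))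
        rcases (quat_facts.2.1 _).1 hc' with h2 | h2 <;> rw [h2] <;> decide
      rw [← map_mul, ← map_one e] at h1
      have h2 : d * d * (d * d) = 1 := congrArg Subtype.val (e.injective h1)
      rw [show (4 : ℕ) = 2 + 2 by norm_num, pow_add, pow_two]
      exact h2
    set Y := W ⊔ Subgroup.zpowers d with hY
    have hYX : Y ≤ XS := sup_le hWX (Subgroup.zpowers_le.2 hd.1)
    have hHY : H ≤ Subgroup.normalizer (Y : Set S) := by
      intro h hh
      rw [Subgroup.mem_normalizer_iff_map_conj_eq, hY, Subgroup.map_sup,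
        Subgroup.mem_normalizer_iff_map_conj_eq.1 (hHW hh), MonoidHom.map_zpowers]
      change W ⊔ Subgroup.zpowers (h * d * h⁻¹) = _
      have hc : d⁻¹ * (h * d * h⁻¹) ∈ W := by
        have h1 := Subgroup.commutator_mem_commutator (H₁ := XS) (H₂ := H) (inv_mem hd.1) hh
        rw [commutatorElement_def] at h1
        simpa [mul_assoc] using h1
      refine le_antisymm (sup_le le_sup_left (Subgroup.zpowers_le.2 ?_))
        (sup_le le_sup_left (Subgroup.zpowers_le.2 ?_))
      · rw [show h * d * h⁻¹ = d * (d⁻¹ * (h * d * h⁻¹)) by group]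
        exact mul_mem (Subgroup.mem_sup_right (Subgroup.mem_zpowers d)) (Subgroup.mem_sup_left hc)
      · have h3 : (h * d * h⁻¹) * (d⁻¹ * (h * d * h⁻¹))⁻¹ ∈
            W ⊔ Subgroup.zpowers (h * d * h⁻¹) :=
          mul_mem (Subgroup.mem_sup_right (Subgroup.mem_zpowers _))
            (Subgroup.mem_sup_left (inv_mem hc))
        convert h3 using 1
        group
    have hat' : Atom W := Or.inr ⟨e⟩
    have hYeq : Y = XS := by
      by_contra hYeq
      obtain ⟨A', hA'W, hA'c, hA'4, -⟩ := hat'.exists_four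
      exact hdW (hA'W ((hkey Y hYX hYeq hHY).centralizer_inf_le (hX2.to_le hYX)
        (hA'W.trans le_sup_left) hA'c hA'4 (fun a ha => hat'.pow_four (hA'W ha))
        (Subgroup.mem_sup_right (Subgroup.mem_zpowers d)) (Subgroup.centralizer_le hA'W hd.2) hd4))
    rw [Subgroup.relIndex_eq_two_iff]
    refine ⟨d, hd.1, fun x hx => ?_⟩
    rw [← hYeq, hY] at hx
    -- elements of `Y` are `w * d ^ n`
    have hform : ∃ w ∈ W, ∃ n : ℤ, x = w * d ^ n := by
      have hsub : ∀ y ∈ W ⊔ Subgroup.zpowers d, ∃ w ∈ W, ∃ n : ℤ, y = w * d ^ n := by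
        let Q : Subgroup S :=
          { carrier := {y | ∃ w ∈ W, ∃ n : ℤ, y = w * d ^ n}
            one_mem' := ⟨1, one_mem _, 0, by simp⟩
            mul_mem' := by
              rintro _ _ ⟨w, hw, n, rfl⟩ ⟨w', hw', n', rfl⟩
              refine ⟨w * w', mul_mem hw hw', n + n', ?_⟩
              have hcm : Commute (d ^ n) w' :=
                ((show Commute w' d from Subgroup.mem_centralizer_iff.1 hd.2 w' hw').zpow_right n).symm
              rw [zpow_add, mul_assoc, ← mul_assoc (d ^ n), hcm.eq]; group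
            inv_mem' := by
              rintro _ ⟨w, hw, n, rfl⟩
              refine ⟨w⁻¹, inv_mem hw, -n, ?_⟩
              have hcm : Commute (d ^ n) w :=
                ((show Commute w d from Subgroup.mem_centralizer_iff.1 hd.2 w hw).zpow_right n).symm
              rw [mul_inv_rev, zpow_neg, ← mul_inv_rev, ← mul_inv_rev, hcm.eq] }
        intro y hy
        have hle : W ⊔ Subgroup.zpowers d ≤ Q := sup_le (fun w hw => ⟨w, hw, 0, by simp⟩)
          (Subgroup.zpowers_le.2 ⟨1, one_mem _, 1, by simp⟩)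
        exact hle hy
      exact hsub x hx
    obtain ⟨w, hw, n, rfl⟩ := hform
    have hmul : ∀ y : S, (w * y ∈ W ↔ y ∈ W) := fun y => ⟨fun h => by
      have := mul_mem (inv_mem hw) h
      rwa [← mul_assoc, inv_mul_cancel, one_mul] at this, fun h => mul_mem hw h⟩
    rw [mul_assoc, hmul, hmul]
    obtain ⟨m, rfl | rfl⟩ := Int.even_or_odd' n
    · have h0 : d ^ (2 * m) ∈ W := by
        rw [zpow_mul, show d ^ (2 : ℤ) = d * d by rw [zpow_two]]
        exact zpow_mem hd2 m
      refine Or.inr ⟨h0, fun h => hdW ?_⟩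
      have := mul_mem (inv_mem h0) h
      rwa [← mul_assoc, inv_mul_cancel, one_mul] at this
    · have h0 : d ^ (2 * m) ∈ W := by
        rw [zpow_mul, show d ^ (2 : ℤ) = d * d by rw [zpow_two]]
        exact zpow_mem hd2 m
      refine Or.inl ⟨?_, fun h => hdW ?_⟩
      · rw [zpow_add_one, mul_assoc]; exact mul_mem h0 hd2
      · rw [zpow_add_one] at h
        have := mul_mem (inv_mem h0) h
        rwa [← mul_assoc, inv_mul_cancel, one_mul] at this

end Cfsg.Agent.TwoSmall
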