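import Cfsg.Agent.TwoSmall.Atom
import Cfsg.Agent.Invol.FourGroup
import Cfsg.Agent.Lib.Hall
import Cfsg.Agent.PSolv.HallHigman

/-!
Minimal solvable groups with a noncyclic abelian subgroup of order 8.
-/

set_option autoImplicit false

open Cfsg
open scoped commutatorElement

namespace Cfsg.Agent.TwoSmall

variable {S : Type*} [Group S] [Finite S]

/-- Data of a minimal invariant subgroup moved by an odd order group. -/
theorem exists_min_moved {W H : Subgroup S} (hW : IsPGroup 2 W) (hH : Odd (Nat.card H))
    (hHW : H ≤ Subgroup.normalizer (W : Set S)) (hne : ¬ H ≤ Subgroup.centralizer (W : Set S)) :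
    ∃ E : Subgroup S, E ≤ W ∧ H ≤ Subgroup.normalizer (E : Set S) ∧
      ¬ H ≤ Subgroup.centralizer (E : Set S) ∧ ⁅E, H⁆ = E ∧
      ∀ Y : Subgroup S, Y ≤ E → Y ≠ E → H ≤ Subgroup.normalizer (Y : Set S) →
        H ≤ Subgroup.centralizer (Y : Set S) := by
  let T := {Y : Subgroup S | Y ≤ W ∧ H ≤ Subgroup.normalizer (Y : Set S) ∧
    ¬ H ≤ Subgroup.centralizer (Y : Set S)}
  obtain ⟨E, ⟨hEW, hHE, hHEc⟩, hmin⟩ :=
    Set.exists_min_image T (fun Y => Nat.card Y) (Set.toFinite _) ⟨W, le_rfl, hHW, hne⟩
  have hsmall : ∀ Y : Subgroup S, Y ≤ E → Y ≠ E → H ≤ Subgroup.normalizer (Y : Set S) →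
      H ≤ Subgroup.centralizer (Y : Set S) := by
    intro Y hY hYE hHY
    by_contra hc
    exact hYE (Subgroup.eq_of_le_of_card_ge hY (hmin Y ⟨hY.trans hEW, hHY, hc⟩))
  refine ⟨E, hEW, hHE, hHEc, ?_, hsmall⟩
  have hle := Coprime.commutator_le_of_le_normalizer hHE
  by_contra hne'
  refine hHEc (Coprime.le_centralizer_of_commutator_commutator_eq_bot hHE
    (coprime_card hH (hW.to_le hEW)) ?_)
  exact Subgroup.commutator_eq_bot_iff_le_centralizer.2 (Subgroup.le_centralizer_iff.1
    (hsmall _ hle hne' (Coprime.le_normalizer_commutator_right E H)))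

/-- The Frattini subgroup, inside `S`. -/
abbrev phi (E : Subgroup S) : Subgroup S := (frattini E).map E.subtype

theorem phi_le (E : Subgroup S) : phi E ≤ E := Subgroup.map_subtype_le _

theorem normalizer_le_normalizer_phi (E : Subgroup S) :
    Subgroup.normalizer (E : Set S) ≤ Subgroup.normalizer (phi E : Set S) := by
  intro g hg
  have key : ∀ u ∈ Subgroup.normalizer (E : Set S), ∀ y ∈ phi E, u * y * u⁻¹ ∈ phi E := by
    rintro u hu _ ⟨z, hz, rfl⟩
    refine ⟨E.normalizerMonoidHom ⟨u, hu⟩ z, ?_, rfl⟩
    exact (Subgroup.characteristic_iff_le_comap.mp frattini_characteristic _) hz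
  refine Subgroup.mem_normalizer_iff.mpr fun y => ⟨key g hg y, fun hy => ?_⟩
  have := key g⁻¹ (inv_mem hg) _ hy
  simpa [mul_assoc] using this

theorem sq_mem_phi {E : Subgroup S} (hE : IsPGroup 2 E) {a : S} (ha : a ∈ E) : a * a ∈ phi E := by
  haveI : Fact (Nat.Prime 2) := ⟨Nat.prime_two⟩
  refine ⟨⟨a, ha⟩ ^ 2, PGroup.pow_mem_frattini hE _, ?_⟩
  simp [pow_two]

theorem comm_mem_phi {E : Subgroup S} (hE : IsPGroup 2 E) {a b : S} (ha : a ∈ E) (hb : b ∈ E) :
    a * b * a⁻¹ * b⁻¹ ∈ phi E := by
  haveI : Fact (Nat.Prime 2) := ⟨Nat.prime_two⟩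
  refine ⟨⁅(⟨a, ha⟩ : E), ⟨b, hb⟩⁆, PGroup.commutatorElement_mem_frattini hE _ _, ?_⟩
  simp [commutatorElement_def]

/-- Three subgroup lemma: `[E, H] = E` centralizes whatever normal subgroup `H` centralizes. -/
theorem le_centralizer_of_fixed {E H N : Subgroup S} (hEH : ⁅E, H⁆ = E)
    (hEN : E ≤ Subgroup.normalizer (N : Set S)) (hHN : H ≤ Subgroup.centralizer (N : Set S)) :
    E ≤ Subgroup.centralizer (N : Set S) := by
  rw [← hEH, ← Subgroup.commutator_eq_bot_iff_le_centralizer]
  refine Subgroup.commutator_commutator_eq_bot_of_rotate ?_ ?_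
  · rw [show ⁅H, N⁆ = ⊥ from Subgroup.commutator_eq_bot_iff_le_centralizer.2 hHN,
      Subgroup.commutator_bot_left]
  · rw [← le_bot_iff, ← (Subgroup.commutator_eq_bot_iff_le_centralizer.2
      (Subgroup.le_centralizer_iff.1 hHN) : ⁅N, H⁆ = ⊥)]
    exact Subgroup.commutator_mono (Subgroup.le_normalizer_iff_commutator_le_left.1 hEN) le_rfl

/-- A four-group with an element outside centralizing it would give a noncyclic abelian group of
order eight. -/
theorem Small.centralizer_inf_le {W A : Subgroup S} (hW : Small W) (hW2 : IsPGroup 2 W)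
    (hA : A ≤ W) (hAc : IsMulCommutative A) (hA4 : Nat.card A = 4) (he : ∀ a ∈ A, a ^ 4 = 1)
    {c : S} (hc : c ∈ W) (hcA : c ∈ Subgroup.centralizer (A : Set S))
    (hc4 : c ^ 4 = 1) : c ∈ A := by
  by_contra hcn
  let B : Subgroup S := Subgroup.closure ((A : Set S) ∪ {c})
  have hBW : B ≤ W := (Subgroup.closure_le _).2 (Set.union_subset hA (Set.singleton_subset_iff.2 hc))
  have hcomm : IsMulCommutative B := Subgroup.isMulCommutative_closure fun x hx y hy => by
    rcases hx with hx | hx <;> rcases hy with hy | hy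
    · exact comm_apply hAc hx hy
    · rw [Set.mem_singleton_iff.1 hy]; exact Subgroup.mem_centralizer_iff.1 hcA x hx
    · rw [Set.mem_singleton_iff.1 hx]; exact (Subgroup.mem_centralizer_iff.1 hcA y hy).symm
    · rw [Set.mem_singleton_iff.1 hx, Set.mem_singleton_iff.1 hy]
  have hexp : ∀ b ∈ B, b ^ 4 = 1 := by
    intro b hb
    induction hb using Subgroup.closure_induction with
    | mem x hx =>
      rcases hx with hx | hx
      · exact he x hx
      · rw [Set.mem_singleton_iff.1 hx]; exact hc4
    | one => exact one_pow 4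
    | mul a b ha hb iha ihb =>
      rw [(show Commute a b from comm_apply hcomm ha hb).mul_pow, iha, ihb, one_mul]
    | inv a _ iha => rw [inv_pow, iha, inv_one]
  have h1 := hW.card_le_four hW2 hBW hcomm hexp
  have h2 : A < B := SetLike.lt_iff_le_and_exists.2
    ⟨fun x hx => Subgroup.subset_closure (Or.inl hx), c, Subgroup.subset_closure (Or.inr rfl), hcn⟩
  have h3 : Nat.card A < Nat.card B := lt_of_le_of_ne (Subgroup.card_le_of_le h2.le)
    fun e => h2.ne (Subgroup.eq_of_le_of_card_ge h2.le e.ge)
  omega

theorem exists_sq_mem {K A : Subgroup S} (hK : IsPGroup 2 K) {c : S} (hc : c ∈ K) (hcA : c ∉ A) :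
    ∃ d ∈ K, d ∉ A ∧ d * d ∈ A ∧ ∃ n : ℕ, d = c ^ n := by
  obtain ⟨j, hj⟩ := hK ⟨c, hc⟩
  have hj' : c ^ 2 ^ j = 1 := by simpa using congrArg Subtype.val hj
  have hex : ∃ i, c ^ 2 ^ i ∈ A := ⟨j, by rw [hj']; exact A.one_mem⟩
  classical
  obtain ⟨i, hi⟩ := Nat.exists_eq_succ_of_ne_zero (n := Nat.find hex) fun h0 => hcA (by
    have := Nat.find_spec hex
    rwa [h0, pow_zero, pow_one] at this)
  refine ⟨c ^ 2 ^ i, pow_mem hc _, Nat.find_min hex (by omega), ?_, _, rfl⟩
  have := Nat.find_spec hex
  rwa [hi, pow_succ, pow_mul, pow_two] at this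

/-- A small 2-group with a non-trivial automorphism of odd order is a four-group or quaternion of
order 8. -/
theorem Small.atom {W H : Subgroup S} (hW : Small W) (hW2 : IsPGroup 2 W)
    (hH : Odd (Nat.card H)) (hHW : H ≤ Subgroup.normalizer (W : Set S))
    (hne : ¬ H ≤ Subgroup.centralizer (W : Set S)) : Atom W := by
  haveI : Fact (Nat.Prime 2) := ⟨Nat.prime_two⟩
  obtain ⟨E, hEW, hHE, hHEc, hEH, hmin⟩ := exists_min_moved hW2 hH hHW hne
  have hE2 : IsPGroup 2 E := hW2.to_le hEW
  obtain ⟨h₀, hh₀, hh₀c⟩ := SetLike.not_le_iff_exists.1 hHEc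
  have hEatom : Atom E := by
    by_cases huniq : ∀ x ∈ E, ∀ y ∈ E, orderOf x = 2 → orderOf y = 2 → x = y
    · exact Or.inr (H4.equiv_quaternion_two hE2 huniq (hHE hh₀)
        (odd_orderOf hH hh₀).coprime_two_right hh₀c)
    left
    push_neg at huniq
    have hEne : E ≠ ⊥ := by
      rintro rfl
      exact hHEc fun h _ => Subgroup.mem_centralizer_iff.2 fun y hy => by
        rw [Subgroup.mem_bot.1 hy]; simp
    -- a central involution and another involution
    obtain ⟨⟨z, hzE⟩, -, hzc, hzo⟩ := TwoGroups.exists_central_involution_of_normal hE2 ⊤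
      (by
        haveI : Nontrivial E := (Subgroup.nontrivial_iff_ne_bot E).2 hEne
        exact top_ne_bot)
    rw [← Subgroup.orderOf_coe] at hzo
    change orderOf z = 2 at hzo
    have hzz : z * z = 1 := by rw [← pow_two, ← hzo, pow_orderOf_eq_one]
    have hzcomm : ∀ e ∈ E, e * z = z * e := fun e he =>
      congrArg Subtype.val (Subgroup.mem_center_iff.1 hzc ⟨e, he⟩)
    obtain ⟨x, hxE, hxo, hxz⟩ : ∃ x ∈ E, orderOf x = 2 ∧ x ≠ z := by
      obtain ⟨a, ha, b, hb, hao, hbo, hab⟩ := huniq
      by_cases haz : a = z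
      · exact ⟨b, hb, hbo, fun e => hab (haz.trans e.symm)⟩
      · exact ⟨a, ha, hao, haz⟩
    have hxx : x * x = 1 := by rw [← pow_two, ← hxo, pow_orderOf_eq_one]
    have hx1 : x ≠ 1 := fun e => by rw [e, orderOf_one] at hxo; norm_num at hxo
    have hz1 : z ≠ 1 := fun e => by rw [e, orderOf_one] at hzo; norm_num at hzo
    set M := Subgroup.closure ({z, x} : Set S) with hM
    have hMcomm : IsMulCommutative M := Subgroup.isMulCommutative_closure fun a ha b hb => by
      rcases ha with rfl | rfl <;> rcases hb with rfl | rfl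
      · rfl
      · exact (hzcomm _ hxE).symm
      · exact hzcomm _ hxE
      · rfl
    have hMexp : ∀ m ∈ M, m * m = 1 := by
      intro m hm
      induction hm using Subgroup.closure_induction with
      | mem a ha => rcases ha with rfl | rfl <;> assumption
      | one => exact one_mul 1
      | mul a b ha hb iha ihb =>
        rw [show a * b * (a * b) = a * (b * a) * b by group, comm_apply hMcomm hb ha,
          show a * (a * b) * b = (a * a) * (b * b) by group, iha, ihb, one_mul]
      | inv a _ iha => rw [← mul_inv_rev, iha, inv_one]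
    have hzM : z ∈ M := Subgroup.subset_closure (Or.inl rfl)
    have hxM : x ∈ M := Subgroup.subset_closure (Or.inr rfl)
    have hME : M ≤ E := (Subgroup.closure_le _).2 fun a ha => by
      rcases ha with rfl | rfl <;> assumption
    have hM4' : ∀ m ∈ M, m ^ 4 = 1 := fun m hm => by
      rw [show (4 : ℕ) = 2 + 2 by norm_num, pow_add, pow_two, hMexp m hm, mul_one]
    have hM4 : Nat.card M = 4 := by
      refine le_antisymm (hW.card_le_four hW2 (hME.trans hEW) hMcomm hM4') ?_
      let g : Fin 4 → M := ![1, ⟨z, hzM⟩, ⟨x, hxM⟩, ⟨z * x, mul_mem hzM hxM⟩]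
      have n1 : z * x ≠ 1 := fun e => hxz (by
        rw [← inv_eq_of_mul_eq_one_right e]; exact inv_eq_of_mul_eq_one_right hzz)
      have n2 : z * x ≠ z := fun e => hx1 (by simpa using e)
      have n3 : z * x ≠ x := fun e => hz1 (by simpa using e)
      have hg : Function.Injective g := by
        intro i j e
        have e' := congrArg Subtype.val e
        fin_cases i <;> fin_cases j <;> simp [g] at e' ⊢ <;>
          first
            | exact absurd e' hz1 | exact absurd e'.symm hz1 | exact absurd e' hx1
            | exact absurd e'.symm hx1 | exact absurd e' hxz | exact absurd e'.symm hxz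
            | exact absurd e' n1 | exact absurd e'.symm n1 | exact absurd e' n2
            | exact absurd e'.symm n2 | exact absurd e' n3 | exact absurd e'.symm n3
      simpa using Nat.card_le_card_of_injective g hg
    -- `M` is self-centralizing
    have hCM : ∀ c ∈ E, c ∈ Subgroup.centralizer (M : Set S) → c ∈ M := by
      intro c hc hcc
      by_contra hcM
      obtain ⟨d, hd, hdM, hd2, -⟩ := exists_sq_mem (A := M)
        (hE2.to_le (inf_le_left : E ⊓ Subgroup.centralizer (M : Set S) ≤ E))
        (Subgroup.mem_inf.2 ⟨hc, hcc⟩) hcM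
      refine hdM (hW.centralizer_inf_le hW2 (hME.trans hEW) hMcomm hM4 hM4' (hEW hd.1) hd.2 ?_)
      rw [show (4 : ℕ) = 2 + 2 by norm_num, pow_add, pow_two]
      exact hMexp _ hd2
    by_cases hEM : E ≤ M
    · have : E = M := le_antisymm hEM hME
      exact this ▸ ⟨hMcomm, hM4, hMexp⟩
    exfalso
    -- the odd order group fixes `z`
    set Zc := E ⊓ Subgroup.centralizer (E : Set S) with hZc
    have hZM : Zc ≤ M := fun c hc => hCM c hc.1 (Subgroup.centralizer_le hME hc.2)
    have hZH : H ≤ Subgroup.centralizer (Zc : Set S) := by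
      refine hmin Zc inf_le_left (fun e => hEM (e ▸ hZM)) fun h hh => ?_
      rw [Subgroup.mem_normalizer_iff_map_conj_eq, hZc,
        Subgroup.map_inf _ _ _ (MulAut.conj h).injective]
      have hh' : E.map (MulAut.conj h).toMonoidHom = E :=
        Subgroup.mem_normalizer_iff_map_conj_eq.1 (hHE hh)
      have hc' := PSolv.map_centralizer_equiv (MulAut.conj h) E
      rw [hh'] at hc'
      exact congrArg₂ (· ⊓ ·) hh' hc'
    have hzfix : ∀ h ∈ H, h * z * h⁻¹ = z := fun h hh => mul_inv_eq_iff_eq_mul.2
      (Subgroup.mem_centralizer_iff.1 (hZH hh) z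
        ⟨hzE, Subgroup.mem_centralizer_iff.2 fun e he => hzcomm e he⟩).symm
    have hPhiH : H ≤ Subgroup.centralizer (phi E : Set S) := by
      refine hmin _ (phi_le E) (fun e => ?_) (hHE.trans (normalizer_le_normalizer_phi E))
      have h1 : frattini E = ⊤ := Subgroup.map_injective E.subtype_injective (by
        rw [← MonoidHom.range_eq_map, Subgroup.range_subtype]; exact e)
      exact hEne (eq_bot_iff.2 fun a ha => by
        have h2 := PGroup.eq_top_of_sup_frattini (P := E) (H := ⊥) (by rw [h1, bot_sup_eq])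
        have h3 := h2.ge (Subgroup.mem_top ⟨a, ha⟩)
        exact Subgroup.mem_bot.2 (congrArg Subtype.val (Subgroup.mem_bot.1 h3)))
    have hPhiC : E ≤ Subgroup.centralizer (phi E : Set S) :=
      le_centralizer_of_fixed hEH (Subgroup.le_normalizer.trans (normalizer_le_normalizer_phi E))
        hPhiH
    have hPhiM : phi E ≤ M := fun c hc => hZM ⟨phi_le E hc,
      Subgroup.le_centralizer_iff.1 hPhiC hc⟩
    have hEN : E ≤ Subgroup.normalizer (M : Set S) := by
      intro e he
      have key : ∀ u ∈ E, ∀ m ∈ M, u * m * u⁻¹ ∈ M := fun u hu m hm => by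
        have := M.mul_mem (hPhiM (comm_mem_phi hE2 hu (hME hm))) hm
        simpa using this
      rw [Subgroup.mem_normalizer_iff]
      refine fun m => ⟨key e he m, fun hm => ?_⟩
      have := key e⁻¹ (inv_mem he) _ hm
      simpa [mul_assoc] using this
    have hMatom : Atom M := Or.inl ⟨hMcomm, hM4, hMexp⟩
    have hidx := hMatom.two_group_aux hE2 hEN
    have hMC : ∀ c ∈ E, c ∈ M ⊔ Subgroup.centralizer (M : Set S) → c ∈ M := by
      intro c hc hc'
      have hMle : M ≤ Subgroup.centralizer (M : Set S) := fun a ha =>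
        Subgroup.mem_centralizer_iff.2 fun b hb => comm_apply hMcomm hb ha
      rw [sup_eq_right.2 hMle] at hc'
      exact hCM c hc hc'
    -- an element of `H` moves `x` out of `M`
    obtain ⟨h, hh, hy⟩ : ∃ h ∈ H, h * x * h⁻¹ ∉ M := by
      by_contra hall
      push_neg at hall
      have hN : ∀ h ∈ H, h ∈ Subgroup.normalizer (M : Set S) := by
        intro h hh
        rw [Subgroup.mem_normalizer_iff_map_conj_eq]
        refine Subgroup.eq_of_le_of_card_ge ?_
          (Subgroup.card_map_of_injective (MulAut.conj h).injective).ge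
        rw [hM, MonoidHom.map_closure, Subgroup.closure_le]
        rintro _ ⟨a, ha, rfl⟩
        rcases ha with ha | ha <;> subst a
        · change h * z * h⁻¹ ∈ M
          rw [hzfix h hh]; exact hzM
        · exact hall h hh
      have hxfix : ∀ h ∈ H, h * x * h⁻¹ = x := fun h hh => mul_inv_eq_iff_eq_mul.2
        (commute_of_fix_four hM4 (hN h hh) (odd_orderOf hH hh) hzM hz1
          (mul_inv_eq_iff_eq_mul.1 (hzfix h hh)) hxM).eq
      have hxP : x ∈ phi E := mem_of_fixed_mod hHE hH hEH (phi_le E)
        (fun a ha => sq_mem_phi hE2 ha) (fun a ha b hb => comm_mem_phi hE2 ha hb) hxE hxfix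
      refine hEM fun e he => hCM e he (Subgroup.mem_centralizer_iff.2 fun m hm => ?_)
      induction hm using Subgroup.closure_induction with
      | mem a ha =>
        rcases ha with rfl | rfl
        · exact (hzcomm e he).symm
        · exact Subgroup.mem_centralizer_iff.1 (hPhiC he) _ hxP
      | one => simp
      | mul a b _ _ iha ihb => rw [mul_assoc, ihb, ← mul_assoc, iha, mul_assoc]
      | inv a _ iha => exact ((show Commute a e from iha).inv_left).eq
    set y := h * x * h⁻¹ with hydef
    have hyE : y ∈ E := (Subgroup.mem_normalizer_iff.1 (hHE hh) x).1 hxE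
    set y' := h * y * h⁻¹ with hy'def
    have hy'E : y' ∈ E := (Subgroup.mem_normalizer_iff.1 (hHE hh) y).1 hyE
    have hcz : Commute h z := mul_inv_eq_iff_eq_mul.1 (hzfix h hh)
    have hMimg : ∀ m ∈ M, h * m * h⁻¹ ∈ M → m = 1 ∨ m = z := by
      intro m hm hm'
      by_contra hno
      push_neg at hno
      -- then `M` is invariant
      have hle : M.map (MulAut.conj h).toMonoidHom ≤ M := by
        have hgen : M ≤ Subgroup.closure ({z, m} : Set S) := by
          refine (Subgroup.eq_of_le_of_card_ge ((Subgroup.closure_le _).2 fun a ha => by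
            rcases ha with rfl | rfl <;> assumption) ?_).ge
          rw [hM4]
          by_contra hlt
          have h3 : 3 ≤ Nat.card ↥(Subgroup.closure ({z, m} : Set S)) := by
            let g : Fin 3 → ↥(Subgroup.closure ({z, m} : Set S)) :=
              ![1, ⟨z, Subgroup.subset_closure (Or.inl rfl)⟩,
                ⟨m, Subgroup.subset_closure (Or.inr rfl)⟩]
            have hg : Function.Injective g := by
              intro i j e
              have e' := congrArg Subtype.val e
              fin_cases i <;> fin_cases j <;> simp [g] at e' ⊢ <;>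
                first
                  | exact absurd e' hz1 | exact absurd e'.symm hz1 | exact absurd e' hno.1
                  | exact absurd e'.symm hno.1 | exact absurd e' hno.2 | exact absurd e'.symm hno.2
            simpa using Nat.card_le_card_of_injective g hg
          obtain ⟨k, hk⟩ := IsPGroup.iff_card.1 (hE2.to_le (show Subgroup.closure ({z, m} : Set S) ≤ E
            from (Subgroup.closure_le _).2 fun a ha => by
              rcases ha with rfl | rfl
              · exact hzE
              · exact hME hm))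
          rcases k with _ | _ | k
          · simp only [hk] at h3; norm_num at h3
          · simp only [hk] at h3; norm_num at h3
          · exact hlt (hk ▸ le_trans (by norm_num) (Nat.pow_le_pow_right (by norm_num)
              (show 2 ≤ k + 2 by omega)))
        refine (Subgroup.map_mono hgen).trans ?_
        rw [MonoidHom.map_closure, Subgroup.closure_le]
        rintro _ ⟨a, ha, rfl⟩
        rcases ha with ha | ha <;> subst a
        · change h * z * h⁻¹ ∈ M
          rw [hzfix h hh]; exact hzM
        · exact hm'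
      exact hy (hle ⟨x, hxM, rfl⟩)
    have hy'M : y' ∉ M := by
      intro hy'
      apply hy
      -- `h²` fixes the four-group
      have hh2 : h * h ∈ Subgroup.normalizer (M : Set S) := by
        rw [Subgroup.mem_normalizer_iff_map_conj_eq]
        refine Subgroup.eq_of_le_of_card_ge ?_
          (Subgroup.card_map_of_injective (MulAut.conj (h * h)).injective).ge
        rw [hM, MonoidHom.map_closure, Subgroup.closure_le]
        rintro _ ⟨a, ha, rfl⟩
        rcases ha with ha | ha <;> subst a
        · change h * h * z * (h * h)⁻¹ ∈ M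
          rw [mul_inv_eq_iff_eq_mul.2 (hcz.mul_left hcz).eq]; exact hzM
        · change h * h * x * (h * h)⁻¹ ∈ M
          rw [show h * h * x * (h * h)⁻¹ = y' by rw [hy'def, hydef]; group]
          exact hy'
      have hcx := commute_of_fix_four hM4 hh2 (odd_orderOf hH (mul_mem hh hh)) hzM hz1
        (hcz.mul_left hcz) hxM
      rw [hydef, mul_inv_eq_iff_eq_mul.2 (conj_iterate_fixed (odd_orderOf hH hh) hcx).eq]
      exact hxM
    have hm : y' * y ∈ M := by
      have h2 : ((M ⊔ Subgroup.centralizer (M : Set S)).subgroupOf E).index = 2 := by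
        have h0 : ((M ⊔ Subgroup.centralizer (M : Set S)).subgroupOf E).index ≠ 0 :=
          Subgroup.index_ne_zero_of_finite
        have h1 : ((M ⊔ Subgroup.centralizer (M : Set S)).subgroupOf E).index ≤ 2 := hidx
        by_contra hne2
        have h3 : ((M ⊔ Subgroup.centralizer (M : Set S)).subgroupOf E).index = 1 := by omega
        exact hy (hMC _ hyE (Subgroup.mem_subgroupOf.1
          ((Subgroup.index_eq_one.1 h3).ge (Subgroup.mem_top (⟨y, hyE⟩ : E)))))
      have := (Subgroup.mul_mem_iff_of_index_two h2 (a := ⟨y', hy'E⟩) (b := ⟨y, hyE⟩)).2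
        (iff_of_false (fun e => hy'M (hMC _ hy'E (Subgroup.mem_subgroupOf.1 e)))
          (fun e => hy (hMC _ hyE (Subgroup.mem_subgroupOf.1 e))))
      exact hMC _ (mul_mem hy'E hyE) (Subgroup.mem_subgroupOf.1 this)
    have hyy : y * y = 1 := by rw [hydef, show h * x * h⁻¹ * (h * x * h⁻¹) = h * (x * x) * h⁻¹ by group, hxx]; group
    have hy'y' : y' * y' = 1 := by rw [hy'def, show h * y * h⁻¹ * (h * y * h⁻¹) = h * (y * y) * h⁻¹ by group, hyy]; group
    set m := y' * y with hmdef
    have hym : y' = m * y := by rw [hmdef, mul_assoc, hyy, mul_one]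
    have hcom : m * y = y * m := by
      have e : m * y * (m * y) = 1 := hym ▸ hy'y'
      calc m * y = (m * y)⁻¹ := (inv_eq_of_mul_eq_one_right e).symm
        _ = y⁻¹ * m⁻¹ := by group
        _ = y * m := by rw [inv_eq_of_mul_eq_one_right hyy, inv_eq_of_mul_eq_one_right (hMexp m hm)]
    have hmz : m ≠ 1 ∧ m ≠ z := by
      refine ⟨fun e => ?_, fun e => ?_⟩
      · rw [e, one_mul, hy'def] at hym
        have : h * x * h⁻¹ = x := by
          have e2 : h * (h * x * h⁻¹) * h⁻¹ = h * x * h⁻¹ := hydef ▸ hym
          simpa using e2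
        exact hy (by rw [hydef, this]; exact hxM)
      · refine hy ?_
        rw [e, hy'def] at hym
        have e2 : h * (h * x * h⁻¹) * h⁻¹ = h * (z * x) * h⁻¹ := by
          rw [← hydef, hym, hydef]
          calc z * (h * x * h⁻¹) = (h * z * h⁻¹) * (h * x * h⁻¹) := by rw [hzfix h hh]
            _ = h * (z * x) * h⁻¹ := by group
        rw [hydef, show h * x * h⁻¹ = z * x by simpa using e2]
        exact mul_mem hzM hxM
    refine hy (hCM y hyE (Subgroup.mem_centralizer_iff.2 fun a ha => ?_))
    -- `M` is generated by `z` and `m`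
    have hgen : M ≤ Subgroup.closure ({z, m} : Set S) := by
      refine (Subgroup.eq_of_le_of_card_ge ((Subgroup.closure_le _).2 fun a ha => by
        rcases ha with rfl | rfl <;> assumption) ?_).ge
      rw [hM4]
      let g : Fin 4 → ↥(Subgroup.closure ({z, m} : Set S)) :=
        ![1, ⟨z, Subgroup.subset_closure (Or.inl rfl)⟩,
          ⟨m, Subgroup.subset_closure (Or.inr rfl)⟩,
          ⟨z * m, mul_mem (Subgroup.subset_closure (Or.inl rfl)) (Subgroup.subset_closure (Or.inr rfl))⟩]
      have n1 : z * m ≠ 1 := fun e => hmz.2 (by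
        rw [← inv_eq_of_mul_eq_one_right e]; exact inv_eq_of_mul_eq_one_right hzz)
      have n2 : z * m ≠ z := fun e => hmz.1 (by simpa using e)
      have n3 : z * m ≠ m := fun e => hz1 (by simpa using e)
      have hg : Function.Injective g := by
        intro i j e
        have e' := congrArg Subtype.val e
        fin_cases i <;> fin_cases j <;> simp [g] at e' ⊢ <;>
          first
            | exact absurd e' hz1 | exact absurd e'.symm hz1 | exact absurd e' hmz.1
            | exact absurd e'.symm hmz.1 | exact absurd e' hmz.2 | exact absurd e'.symm hmz.2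
            | exact absurd e' n1 | exact absurd e'.symm n1 | exact absurd e' n2
            | exact absurd e'.symm n2 | exact absurd e' n3 | exact absurd e'.symm n3
      simpa using Nat.card_le_card_of_injective g hg
    have ha' := hgen ha
    induction ha' using Subgroup.closure_induction with
    | mem b hb =>
      rcases hb with rfl | rfl
      · exact (hzcomm y hyE).symm
      · exact hcom
    | one => simp
    | mul b c hb hc ihb ihc =>
      have hb' : b ∈ M := by
        refine (Subgroup.closure_le _).2 (fun a ha => ?_) hb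
        rcases ha with rfl | rfl <;> assumption
      have hc' : c ∈ M := by
        refine (Subgroup.closure_le _).2 (fun a ha => ?_) hc
        rcases ha with rfl | rfl <;> assumption
      rw [mul_assoc, ihc hc', ← mul_assoc, ihb hb', mul_assoc]
    | inv b hb ihb =>
      have hb' : b ∈ M := by
        refine (Subgroup.closure_le _).2 (fun a ha => ?_) hb
        rcases ha with rfl | rfl <;> assumption
      exact ((show Commute b y from ihb hb').inv_left).eq
  -- `E` is all of `W`
  have hCW : ∀ c ∈ W, c ∈ Subgroup.centralizer (E : Set S) → c ∈ E := by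
    intro c hc hcc
    by_contra hcE
    obtain ⟨A, hAE, hAc, hA4, hZA⟩ := hEatom.exists_four
    obtain ⟨d, hd, hdE, hd2, -⟩ := exists_sq_mem (A := E)
      (hW2.to_le (inf_le_left : W ⊓ Subgroup.centralizer (E : Set S) ≤ W))
      (Subgroup.mem_inf.2 ⟨hc, hcc⟩) hcE
    refine hdE (hAE (hW.centralizer_inf_le hW2 (hAE.trans hEW) hAc hA4
      (fun a ha => hEatom.pow_four (hAE ha)) hd.1 (Subgroup.centralizer_le hAE hd.2) ?_))
    have hdd : d * d ∈ E ⊓ Subgroup.centralizer (E : Set S) := ⟨hd2, mul_mem hd.2 hd.2⟩
    -- the centre has exponent two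
    have hzz : (d * d) * (d * d) = 1 := by
      rcases hEatom with ⟨-, -, he⟩ | ⟨⟨e⟩⟩
      · exact he _ hdd.1
      · have h1 : (e ⟨d * d, hdd.1⟩) * (e ⟨d * d, hdd.1⟩) = 1 := by
          have hc' : ∀ g, g * e ⟨d * d, hdd.1⟩ = e ⟨d * d, hdd.1⟩ * g := fun g => by
            obtain ⟨g, rfl⟩ := e.surjective g
            rw [← map_mul, ← map_mul]
            exact congrArg e (Subtype.ext (Subgroup.mem_centralizer_iff.1 hdd.2 g g.2))
          rcases (quat_facts.2.1 _).1 hc' with h2 | h2 <;> rw [h2] <;> decide
        rw [← map_mul, ← map_one e] at h1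
        exact congrArg Subtype.val (e.injective h1)
    rw [show (4 : ℕ) = 2 + 2 by norm_num, pow_add, pow_two]
    exact hzz
  set N := W ⊓ Subgroup.normalizer (E : Set S) with hN
  have hHN : H ≤ Subgroup.normalizer (N : Set S) := by
    intro h hh
    rw [Subgroup.mem_normalizer_iff_map_conj_eq, hN,
      Subgroup.map_inf _ _ _ (MulAut.conj h).injective,
      Subgroup.mem_normalizer_iff_map_conj_eq.1 (hHW hh)]
    refine congrArg (W ⊓ ·) (Subgroup.mem_normalizer_iff_map_conj_eq.1 ?_)
    exact Subgroup.le_normalizer (hHE hh)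
  have hNE := hEatom.le_sup_centralizer (hW2.to_le inf_le_left) inf_le_right hH hHE hHN hHEc
  have hNeq : N ≤ E := by
    intro n hn
    have hnE : (⟨n, hn.2⟩ : ↥(Subgroup.normalizer (E : Set S))) ∈ E.subgroupOf _ ⊔
        (Subgroup.centralizer (E : Set S)).subgroupOf _ := by
      rw [← Subgroup.subgroupOf_sup Subgroup.le_normalizer (Subgroup.centralizer_le_normalizer _)]
      exact Subgroup.mem_subgroupOf.2 (hNE hn)
    haveI : ((Subgroup.centralizer (E : Set S)).subgroupOf
      (Subgroup.normalizer (E : Set S))).Normal := inferInstance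
    obtain ⟨a, ha, b, hb, hab⟩ := Subgroup.mem_sup_of_normal_right.1 hnE
    have e : (a : S) * (b : S) = n := congrArg Subtype.val hab
    have hbW : (b : S) ∈ W := by
      rw [show (b : S) = (a : S)⁻¹ * n by rw [← e]; group]
      exact mul_mem (inv_mem (hEW ha)) hn.1
    rw [← e]
    exact mul_mem ha (hCW _ hbW hb)
  rcases eq_or_lt_of_le hEW with h | hlt
  · exact h ▸ hEatom
  exfalso
  haveI : Group.IsNilpotent W := hW2.isNilpotent
  have h1 := Group.normalizerCondition_of_isNilpotent (E.subgroupOf W) (by
    rw [lt_top_iff_ne_top, Ne, Subgroup.subgroupOf_eq_top]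
    exact not_le_of_gt hlt)
  obtain ⟨⟨w, hw⟩, hwN, hwE⟩ := SetLike.exists_of_lt h1
  refine hwE (Subgroup.mem_subgroupOf.2 (hNeq ⟨hw, ?_⟩))
  have := PSolv.map_normalizer_le_normalizer_image W.subtype (E.subgroupOf W) ⟨_, hwN, rfl⟩
  rwa [Subgroup.map_subgroupOf_eq_of_le hEW] at this

end Cfsg.Agent.TwoSmall
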