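import Cfsg.Agent.S3742
import Cfsg.Agent.H4.QuaternionSection
import Cfsg.Agent.Coprime.Action
import Cfsg.Agent.PGroup.Frattini
import Cfsg.Agent.PSolv.Factorization
import Mathlib.GroupTheory.SpecificGroups.KleinFour
import Mathlib.GroupTheory.Nilpotent

/-!
2-groups without noncyclic abelian subgroups of order 8 under the action of odd order groups.
-/

set_option autoImplicit false

open Cfsg
open scoped commutatorElement

namespace Cfsg.Agent.TwoSmall

variable {S : Type*} [Group S]

/-- No noncyclic abelian subgroup of order 8 lies inside. -/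
def Small (Y : Subgroup S) : Prop :=
  ∀ A : Subgroup S, A ≤ Y → IsMulCommutative A → Nat.card A = 8 → IsCyclic A

/-- A four-group or a quaternion group of order 8. -/
def Atom (E : Subgroup S) : Prop :=
  (IsMulCommutative E ∧ Nat.card E = 4 ∧ ∀ e ∈ E, e * e = 1) ∨ Nonempty (E ≃* QuaternionGroup 2)

theorem Small.mono {Y Z : Subgroup S} (h : Small Y) (hZY : Z ≤ Y) : Small Z :=
  fun A hA => h A (hA.trans hZY)

theorem comm_apply {A : Subgroup S} (hA : IsMulCommutative A) {a b : S} (ha : a ∈ A) (hb : b ∈ A) :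
    a * b = b * a := congrArg Subtype.val (hA.is_comm.comm ⟨a, ha⟩ ⟨b, hb⟩)

theorem conj_iterate_fixed [Finite S] {h u : S} (hodd : Odd (orderOf h))
    (h2 : Commute (h * h) u) : Commute h u := by
  obtain ⟨m, hm⟩ := hodd
  have e : (h * h) ^ (m + 1) = h := by
    rw [← pow_two, ← pow_mul, show 2 * (m + 1) = (2 * m + 1) + 1 by ring, pow_succ, ← hm,
      pow_orderOf_eq_one, one_mul]
  rw [← e]
  exact h2.pow_left _

theorem odd_orderOf [Finite S] {H : Subgroup S} (hH : Odd (Nat.card H)) {h : S} (hh : h ∈ H) :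
    Odd (orderOf h) :=
  hH.of_dvd_nat (Subgroup.orderOf_dvd_natCard H hh)

theorem coprime_card [Finite S] {H W : Subgroup S} (hH : Odd (Nat.card H)) (hW : IsPGroup 2 W) :
    (Nat.card H).Coprime (Nat.card W) := by
  haveI : Fact (Nat.Prime 2) := ⟨Nat.prime_two⟩
  obtain ⟨k, hk⟩ := IsPGroup.iff_card.1 hW
  rw [hk]
  exact hH.coprime_two_right.pow_right k

theorem eq_one_of_odd_pow [Finite S] {W : Subgroup S} (hW : IsPGroup 2 W) {w : S} (hw : w ∈ W)
    {n : ℕ} (hn : Odd n) (h : w ^ n = 1) : w = 1 := by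
  obtain ⟨j, hj⟩ := hW ⟨w, hw⟩
  have hj' : w ^ 2 ^ j = 1 := by simpa using congrArg Subtype.val hj
  have h1 : w ^ Nat.gcd n (2 ^ j) = 1 := pow_gcd_eq_one.2 ⟨h, hj'⟩
  rwa [Nat.Coprime.gcd_eq_one (hn.coprime_two_right.pow_right j), pow_one] at h1

/-- A small abelian 2-group of exponent dividing 4 has order at most 4. -/
theorem Small.card_le_four [Finite S] {Y A : Subgroup S} (hY : Small Y) (hY2 : IsPGroup 2 Y)
    (hA : A ≤ Y) (hc : IsMulCommutative A) (he : ∀ a ∈ A, a ^ 4 = 1) : Nat.card A ≤ 4 := by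
  haveI : Fact (Nat.Prime 2) := ⟨Nat.prime_two⟩
  by_contra hlt
  obtain ⟨k, hk⟩ := IsPGroup.iff_card.1 (hY2.to_le hA)
  have h3 : 2 ^ 3 ≤ Nat.card A := by
    rw [hk]
    refine Nat.pow_le_pow_right (by norm_num) ?_
    by_contra h2
    have : Nat.card A ≤ 2 ^ 2 := hk ▸ Nat.pow_le_pow_right (by norm_num) (by omega)
    omega
  obtain ⟨B0, hB0⟩ := Sylow.exists_subgroup_card_pow_prime_of_le_card (p := 2) (n := 3)
    Nat.prime_two (hY2.to_le hA) h3
  set B := B0.map A.subtype with hBdef
  have hB : Nat.card B = 2 ^ 3 := by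
    rw [hBdef, Subgroup.card_map_of_injective A.subtype_injective, hB0]
  have hBA : B ≤ A := Subgroup.map_subtype_le _
  have hBc : IsMulCommutative B := ⟨⟨fun a b => Subtype.ext (comm_apply hc (hBA a.2) (hBA b.2))⟩⟩
  have hcyc := hY B (hBA.trans hA) hBc (by rw [hB]; norm_num)
  obtain ⟨g, hg⟩ := IsCyclic.exists_generator (α := B)
  have h8 : orderOf g = 8 := by rw [orderOf_eq_card_of_forall_mem_zpowers hg, hB]; norm_num
  have := orderOf_dvd_of_pow_eq_one (show g ^ 4 = 1 from Subtype.ext (he _ (hBA g.2)))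
  rw [h8] at this
  norm_num at this

/-- An odd order element fixing a nontrivial element of a four-group centralizes it. -/
theorem commute_of_fix_four [Finite S] {V : Subgroup S} (hV : Nat.card V = 4)
    {h u : S} (hh : h ∈ Subgroup.normalizer (V : Set S)) (hodd : Odd (orderOf h)) (hu : u ∈ V)
    (hu1 : u ≠ 1) (hfix : Commute h u) {v : S} (hv : v ∈ V) : Commute h v := by
  by_cases hv1 : v = 1
  · rw [hv1]; exact Commute.one_right h
  by_cases hvu : v = u
  · rw [hvu]; exact hfix
  set f : S → S := fun a => h * a * h⁻¹ with hf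
  have hinj : Function.Injective f := fun a b e => by simpa [hf] using e
  have hmem : ∀ a ∈ V, f a ∈ V := fun a ha => (Subgroup.mem_normalizer_iff.1 hh a).1 ha
  have hfu : f u = u := by rw [hf]; exact mul_inv_eq_iff_eq_mul.2 hfix
  have hf1 : f 1 = 1 := by simp [hf]
  by_contra hne
  have hfv : f v ≠ v := fun e => hne (mul_inv_eq_iff_eq_mul.1 e)
  have hffv : f (f v) ≠ v := by
    intro e
    refine hne (conj_iterate_fixed hodd ?_)
    have e' : h * h * v * (h * h)⁻¹ = v := by simpa [hf, mul_assoc] using e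
    exact mul_inv_eq_iff_eq_mul.1 e'
  have h5 : 5 ≤ Nat.card V := by
    let g : Fin 5 → V := ![1, ⟨u, hu⟩, ⟨v, hv⟩, ⟨f v, hmem _ hv⟩, ⟨f (f v), hmem _ (hmem _ hv)⟩]
    have n1 : f v ≠ 1 := fun e => hv1 (hinj (e.trans hf1.symm))
    have n2 : f v ≠ u := fun e => hvu (hinj (e.trans hfu.symm))
    have n3 : f (f v) ≠ 1 := fun e => n1 (hinj (e.trans hf1.symm))
    have n4 : f (f v) ≠ u := fun e => n2 (hinj (e.trans hfu.symm))
    have n5 : f (f v) ≠ f v := fun e => hfv (hinj e)
    have hg : Function.Injective g := by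
      intro i j e
      have e' := congrArg Subtype.val e
      fin_cases i <;> fin_cases j <;> simp [g] at e' ⊢ <;>
        first
          | exact absurd e' hu1 | exact absurd e'.symm hu1 | exact absurd e' hv1
          | exact absurd e'.symm hv1 | exact absurd e' hvu | exact absurd e'.symm hvu
          | exact absurd e' hfv | exact absurd e'.symm hfv | exact absurd e' hffv
          | exact absurd e'.symm hffv | exact absurd e' n1 | exact absurd e'.symm n1
          | exact absurd e' n2 | exact absurd e'.symm n2 | exact absurd e' n3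
          | exact absurd e'.symm n3 | exact absurd e' n4 | exact absurd e'.symm n4
          | exact absurd e' n5 | exact absurd e'.symm n5
    simpa using Nat.card_le_card_of_injective g hg
  omega

/-! ### Facts about the quaternion group -/

theorem quat_facts : (∀ g : QuaternionGroup 2, g * g * (g * g) = 1) ∧
    (∀ g : QuaternionGroup 2, (∀ h, h * g = g * h) ↔ g = 1 ∨ g = QuaternionGroup.a 2) ∧
    (∀ g : QuaternionGroup 2, g * g = 1 → g = 1 ∨ g = QuaternionGroup.a 2) := by decide

theorem perm_four_exp : ∀ σ : Equiv.Perm (Fin 4), σ ^ 3 = 1 ∨ σ ^ 4 = 1 := by decide +kernel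

theorem perm_three_exp : ∀ σ : Equiv.Perm (Fin 3), σ ^ 3 = 1 ∨ σ ^ 4 = 1 := by decide

theorem card_center_quat : Nat.card (Subgroup.center (QuaternionGroup 2)) = 2 := by
  refine (Nat.card_eq_two_iff' (1 : Subgroup.center (QuaternionGroup 2))).2
    ⟨⟨QuaternionGroup.a 2, Subgroup.mem_center_iff.2 ((quat_facts.2.1 _).2 (Or.inr rfl))⟩,
      fun e => absurd (congrArg Subtype.val e) (by decide), ?_⟩
  rintro ⟨g, hg⟩ hne
  rcases (quat_facts.2.1 g).1 (Subgroup.mem_center_iff.1 hg) with rfl | rfl
  · exact absurd rfl hne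
  · rfl

theorem center_eq {E : Subgroup S} :
    (Subgroup.center E).map E.subtype = E ⊓ Subgroup.centralizer (E : Set S) := by
  refine le_antisymm (le_inf (Subgroup.map_subtype_le _) ?_) ?_
  · rintro _ ⟨z, hz, rfl⟩
    exact Subgroup.mem_centralizer_iff.2 fun y hy =>
      congrArg Subtype.val (Subgroup.mem_center_iff.1 hz ⟨y, hy⟩)
  · rintro x ⟨hx, hxc⟩
    exact ⟨⟨x, hx⟩, Subgroup.mem_center_iff.2 fun y =>
      Subtype.ext (Subgroup.mem_centralizer_iff.1 hxc _ y.2), rfl⟩

theorem Atom.isPGroup {E : Subgroup S} (h : Atom E) : IsPGroup 2 E := by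
  rcases h with ⟨-, -, he⟩ | ⟨⟨e⟩⟩
  · exact fun a => ⟨1, Subtype.ext (by simpa [pow_two] using he a a.2)⟩
  · refine fun a => ⟨2, e.injective ?_⟩
    rw [map_pow, map_one, show (2 : ℕ) ^ 2 = 2 + 2 by norm_num, pow_add, pow_two]
    exact quat_facts.1 _

theorem Atom.pow_four {E : Subgroup S} (h : Atom E) {a : S} (ha : a ∈ E) : a ^ 4 = 1 := by
  rcases h with ⟨-, -, he⟩ | ⟨⟨e⟩⟩
  · rw [show (4 : ℕ) = 2 + 2 by norm_num, pow_add, pow_two, he a ha, mul_one]
  · have h1 : (⟨a, ha⟩ : E) ^ 4 = 1 := e.injective (by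
      rw [map_pow, map_one, show (4 : ℕ) = 2 + 2 by norm_num, pow_add, pow_two]
      exact quat_facts.1 _)
    simpa using congrArg Subtype.val h1

/-- An abelian subgroup of order 4 containing the centre. -/
theorem Atom.exists_four [Finite S] {E : Subgroup S} (h : Atom E) :
    ∃ A : Subgroup S, A ≤ E ∧ IsMulCommutative A ∧ Nat.card A = 4 ∧
      E ⊓ Subgroup.centralizer (E : Set S) ≤ A := by
  rcases h with ⟨hc, h4, -⟩ | ⟨⟨e⟩⟩
  · exact ⟨E, le_rfl, hc, h4, inf_le_left⟩
  · have ho : orderOf (e.symm (QuaternionGroup.a 1)) = 4 := by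
      rw [MulEquiv.orderOf_eq, QuaternionGroup.orderOf_a_one]
    refine ⟨(Subgroup.zpowers (e.symm (QuaternionGroup.a 1))).map E.subtype,
      Subgroup.map_subtype_le _, inferInstance, ?_, ?_⟩
    · rw [Subgroup.card_map_of_injective E.subtype_injective, Nat.card_zpowers, ho]
    · rw [← center_eq]
      refine Subgroup.map_mono fun z hz => ?_
      have h1 : ∀ g, g * e z = e z * g := fun g => by
        obtain ⟨g, rfl⟩ := e.surjective g
        rw [← map_mul, ← map_mul, Subgroup.mem_center_iff.1 hz g]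
      rcases (quat_facts.2.1 (e z)).1 h1 with h2 | h2
      · rw [show z = 1 from e.injective (h2.trans (map_one e).symm)]
        exact one_mem _
      · refine ⟨2, e.injective ?_⟩
        simp only [map_zpow, MulEquiv.apply_symm_apply]
        rw [h2]
        decide

theorem card_mulAut_of_four [Finite S] {E : Subgroup S} (h4 : Nat.card E = 4) :
    ∃ f : MulAut E →* Equiv.Perm (Fin 3), Function.Injective f := by
  classical
  haveI : Fintype E := Fintype.ofFinite E
  have h3 : Nat.card {x : E // x ≠ 1} = 3 := by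
    rw [Nat.card_eq_fintype_card, Fintype.card_subtype_compl, Fintype.card_subtype_eq]
    rw [Nat.card_eq_fintype_card] at h4
    omega
  let ε : {x : E // x ≠ 1} ≃ Fin 3 := Finite.equivFinOfCardEq h3
  let g : MulAut E →* Equiv.Perm {x : E // x ≠ 1} :=
    { toFun := fun φ => φ.toEquiv.subtypeEquiv (fun x => (φ.map_eq_one_iff (x := x)).not.symm)
      map_one' := by ext x; rfl
      map_mul' := fun φ ψ => by ext x; rfl }
  refine ⟨ε.permCongrHom.toMonoidHom.comp g, ε.permCongrHom.injective.comp ?_⟩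
  intro φ ψ e
  ext x
  by_cases hx : x = 1
  · simp [hx]
  · exact congrArg (fun σ : Equiv.Perm {x : E // x ≠ 1} => ((σ ⟨x, hx⟩ : E) : S)) e

/-- The outer automizer has order dividing 6. -/
theorem Atom.card_mulAut [Finite S] {E : Subgroup S} (h : Atom E) :
    Nat.card (MulAut E) ∣ 6 * (Subgroup.centralizer (E : Set S)).relIndex E ∧
      ∀ φ : MulAut E, φ ^ 3 = 1 ∨ φ ^ 4 = 1 := by
  rcases h with ⟨hc, h4, -⟩ | ⟨⟨e⟩⟩
  · obtain ⟨f, hf⟩ := card_mulAut_of_four h4
    refine ⟨Dvd.dvd.mul_right ?_ _, fun φ => ?_⟩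
    · refine (Subgroup.card_dvd_of_injective f hf).trans ?_
      rw [Nat.card_perm, Nat.card_fin]
      norm_num [Nat.factorial]
    · rcases perm_three_exp (f φ) with h1 | h1
      · exact Or.inl (hf (by rw [map_pow, h1, map_one]))
      · exact Or.inr (hf (by rw [map_pow, h1, map_one]))
  · obtain ⟨g⟩ := Cfsg.Agent.S3742.result
    let f : MulAut E ≃* Equiv.Perm (Fin 4) := (MulAut.congr e).trans g
    refine ⟨?_, fun φ => ?_⟩
    · rw [Nat.card_congr f.toEquiv, Nat.card_perm, Nat.card_fin]
      have hi : (Subgroup.centralizer (E : Set S)).relIndex E = 4 := by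
        have e1 : (Subgroup.centralizer (E : Set S)).subgroupOf E = Subgroup.center E := by
          ext z
          rw [Subgroup.mem_subgroupOf, Subgroup.mem_centralizer_iff, Subgroup.mem_center_iff]
          exact ⟨fun hz y => Subtype.ext (hz y y.2), fun hz y hy =>
            congrArg Subtype.val (hz ⟨y, hy⟩)⟩
        change ((Subgroup.centralizer (E : Set S)).subgroupOf E).index = 4
        rw [e1]
        have e2 := Subgroup.card_mul_index (Subgroup.center E)
        have e3 : Nat.card (Subgroup.center E) = 2 := by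
          rw [← card_center_quat]
          exact Nat.card_congr (Subgroup.centerCongr e).toEquiv
        rw [e3, Nat.card_congr e.toEquiv, Nat.card_eq_fintype_card, QuaternionGroup.card] at e2
        omega
      rw [hi]
      norm_num [Nat.factorial]
    · rcases perm_four_exp (f φ) with h1 | h1
      · exact Or.inl (f.injective (by rw [map_pow, h1, map_one]))
      · exact Or.inr (f.injective (by rw [map_pow, h1, map_one]))

/-- A 2-group normalizing an atom meets its outer automizer in order at most 2; one normalized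
by an odd order group acting nontrivially induces inner automorphisms only. -/
theorem Atom.two_group_aux [Finite S] {E D : Subgroup S} (h : Atom E) (hD : IsPGroup 2 D)
    (hDN : D ≤ Subgroup.normalizer (E : Set S)) :
    (E ⊔ Subgroup.centralizer (E : Set S)).relIndex D ≤ 2 := by
  haveI : Fact (Nat.Prime 2) := ⟨Nat.prime_two⟩
  set N := Subgroup.normalizer (E : Set S)
  set K := E ⊔ Subgroup.centralizer (E : Set S) with hK
  have hKN : K ≤ N := sup_le Subgroup.le_normalizer (Subgroup.centralizer_le_normalizer _)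
  haveI hKn : (K.subgroupOf N).Normal := by
    rw [hK, Subgroup.subgroupOf_sup Subgroup.le_normalizer (Subgroup.centralizer_le_normalizer _)]
    haveI : (E.subgroupOf N).Normal := Subgroup.normal_in_normalizer
    infer_instance
  have hNK : K.relIndex N ∣ 6 := by
    set C := Subgroup.centralizer (E : Set S)
    have hCi : C.relIndex N ∣ Nat.card (MulAut E) := by
      change (C.subgroupOf N).index ∣ _
      rw [show C.subgroupOf N = E.normalizerMonoidHom.ker from
        (Subgroup.normalizerMonoidHom_ker E).symm, Subgroup.index_ker]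
      exact Subgroup.card_subgroup_dvd_card _
    have h1 := Subgroup.relIndex_mul_relIndex C K N le_sup_right hKN
    have h2 : C.relIndex K = C.relIndex E := by
      haveI : (C.subgroupOf K).Normal := by
        haveI : (C.subgroupOf N).Normal := inferInstance
        refine ⟨fun c hc g => Subgroup.mem_subgroupOf.2 ?_⟩
        exact (inferInstance : (C.subgroupOf N).Normal).conj_mem ⟨c, hKN c.2⟩
          (Subgroup.mem_subgroupOf.2 (Subgroup.mem_subgroupOf.1 hc)) ⟨g, hKN g.2⟩
      have := Subgroup.relIndex_sup_right (E.subgroupOf K) (C.subgroupOf K)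
      rw [← Subgroup.subgroupOf_sup le_sup_left le_sup_right, Subgroup.subgroupOf_self,
        Subgroup.relIndex_top_right, Subgroup.relIndex_subgroupOf le_sup_left] at this
      exact this
    rw [h2] at h1
    have h3 := (h1 ▸ hCi).trans h.card_mulAut.1
    rw [mul_comm 6] at h3
    exact Nat.dvd_of_mul_dvd_mul_left (Nat.pos_of_ne_zero Subgroup.index_ne_zero_of_finite) h3
  obtain ⟨k, hk⟩ := hD.index (K.subgroupOf D)
  have hd : K.relIndex D ∣ K.relIndex N := by
    have := Subgroup.relIndex_dvd_index_of_normal (H := K.subgroupOf N) (K := D.subgroupOf N)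
    rwa [Subgroup.relIndex_subgroupOf hDN] at this
  have h6 : 2 ^ k ∣ 6 := (dvd_of_eq hk.symm).trans (hd.trans hNK)
  change (K.subgroupOf D).index ≤ 2
  rw [hk]
  rcases k with _ | _ | k
  · norm_num
  · norm_num
  · exfalso
    have := (pow_dvd_pow 2 (show 2 ≤ k + 2 by omega)).trans h6
    norm_num at this

/-- A 2-group normalizing an atom and invariant under an odd order group moving the atom induces
inner automorphisms only. -/
theorem Atom.le_sup_centralizer [Finite S] {E D H : Subgroup S} (h : Atom E) (hD : IsPGroup 2 D)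
    (hDN : D ≤ Subgroup.normalizer (E : Set S)) (hH : Odd (Nat.card H))
    (hHE : H ≤ Subgroup.normalizer (E : Set S)) (hHD : H ≤ Subgroup.normalizer (D : Set S))
    (hne : ¬ H ≤ Subgroup.centralizer (E : Set S)) :
    D ≤ E ⊔ Subgroup.centralizer (E : Set S) := by
  haveI : Fact (Nat.Prime 2) := ⟨Nat.prime_two⟩
  intro d hd
  set N := Subgroup.normalizer (E : Set S)
  set K := E ⊔ Subgroup.centralizer (E : Set S) with hK
  by_contra hdK
  obtain ⟨h₀, hh₀, hh₀C⟩ := SetLike.not_le_iff_exists.1 hne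
  haveI hKn : (K.subgroupOf N).Normal := by
    rw [hK, Subgroup.subgroupOf_sup Subgroup.le_normalizer (Subgroup.centralizer_le_normalizer _)]
    haveI : (E.subgroupOf N).Normal := Subgroup.normal_in_normalizer
    infer_instance
  -- `h₀` fixes the only nontrivial class of `D` modulo `K`
  have hfix : ∀ a ∈ D, a ∉ K → a * d ∈ K := by
    intro a ha haK
    have h2 : (K.subgroupOf D).index = 2 := by
      have h1 : (K.subgroupOf D).index ≤ 2 := h.two_group_aux hD hDN
      have h0 : (K.subgroupOf D).index ≠ 0 := Subgroup.index_ne_zero_of_finite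
      by_contra hne2
      have h3 : (K.subgroupOf D).index = 1 := by omega
      exact hdK (Subgroup.mem_subgroupOf.1
        ((Subgroup.index_eq_one.1 h3).ge (Subgroup.mem_top (⟨d, hd⟩ : D))))
    have := (Subgroup.mul_mem_iff_of_index_two h2 (a := ⟨a, ha⟩) (b := ⟨d, hd⟩)).2
      (iff_of_false (fun e => haK (Subgroup.mem_subgroupOf.1 e))
        (fun e => hdK (Subgroup.mem_subgroupOf.1 e)))
    exact Subgroup.mem_subgroupOf.1 this
  set π := QuotientGroup.mk' (K.subgroupOf N)
  let n : N := ⟨d, hDN hd⟩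
  let m : N := ⟨h₀, hHE hh₀⟩
  have hn2 : π n * π n = 1 := (QuotientGroup.eq_one_iff (n * n)).2
    (Subgroup.mem_subgroupOf.2 (hfix d hd hdK))
  have hn1 : π n ≠ 1 := fun e => hdK (Subgroup.mem_subgroupOf.1 ((QuotientGroup.eq_one_iff n).1 e))
  have hcd : h₀ * d * h₀⁻¹ ∈ D := (Subgroup.mem_normalizer_iff.1 (hHD hh₀) d).1 hd
  have hcdK : h₀ * d * h₀⁻¹ ∉ K := by
    intro e
    refine hdK ?_
    have := hKn.conj_mem ⟨h₀ * d * h₀⁻¹, hDN hcd⟩ (Subgroup.mem_subgroupOf.2 e) m⁻¹
    simpa [Subgroup.mem_subgroupOf, m, mul_assoc] using this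
  have hcomm : Commute (π m) (π n) := by
    have e : π (m * n * m⁻¹) * π n = 1 := by
      rw [← map_mul]
      exact (QuotientGroup.eq_one_iff _).2 (Subgroup.mem_subgroupOf.2 (hfix _ hcd hcdK))
    have e2 : π (m * n * m⁻¹) = π n := mul_right_cancel (e.trans hn2.symm)
    rw [map_mul, map_mul, map_inv] at e2
    exact mul_inv_eq_iff_eq_mul.1 e2
  -- the odd part is nontrivial modulo `K`
  have hm1 : π m ≠ 1 := by
    intro e
    apply hh₀C
    have he : h₀ ∈ K := Subgroup.mem_subgroupOf.1 ((QuotientGroup.eq_one_iff m).1 e)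
    obtain ⟨j, hj⟩ : ∃ j : ℕ, h₀ ^ 2 ^ j ∈ Subgroup.centralizer (E : Set S) := by
      have hpg : IsPGroup 2 (E.normalizerMonoidHom.comp (Subgroup.inclusion
          (Subgroup.le_normalizer : E ≤ N))).range :=
        h.isPGroup.of_surjective _ (MonoidHom.rangeRestrict_surjective _)
      haveI hCn : ((Subgroup.centralizer (E : Set S)).subgroupOf N).Normal := inferInstance
      obtain ⟨e₁, he₁, c, hc, hec⟩ : ∃ e₁ ∈ E, ∃ c ∈ Subgroup.centralizer (E : Set S), e₁ * c = h₀ := by
        have hmem : m ∈ E.subgroupOf N ⊔ (Subgroup.centralizer (E : Set S)).subgroupOf N := by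
          rw [← Subgroup.subgroupOf_sup Subgroup.le_normalizer
            (Subgroup.centralizer_le_normalizer _)]
          exact Subgroup.mem_subgroupOf.2 he
        obtain ⟨a, ha, b, hb, hab⟩ := Subgroup.mem_sup_of_normal_right.1 hmem
        exact ⟨a, ha, b, hb, congrArg Subtype.val hab⟩
      obtain ⟨j, hj⟩ := h.isPGroup ⟨e₁, he₁⟩
      refine ⟨j, ?_⟩
      have hcm : Commute e₁ c := (Subgroup.mem_centralizer_iff.1 hc e₁ he₁)
      rw [← hec, hcm.mul_pow, show e₁ ^ 2 ^ j = 1 by simpa using congrArg Subtype.val hj, one_mul]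
      exact pow_mem hc _
    have ho := odd_orderOf hH hh₀
    have hg : Nat.gcd (2 ^ j) (orderOf h₀) = 1 :=
      (ho.coprime_two_right.pow_right j).symm
    have hb := Nat.gcd_eq_gcd_ab (2 ^ j) (orderOf h₀)
    rw [hg, Nat.cast_one] at hb
    rw [← zpow_one h₀, hb, zpow_add, zpow_mul, zpow_mul, zpow_natCast, zpow_natCast,
      pow_orderOf_eq_one, one_zpow, mul_one]
    exact zpow_mem hj _
  -- an automorphism of order divisible by six
  set φ := E.normalizerMonoidHom (m * n)
  have hker : ∀ k : ℕ, φ ^ k = 1 → π m ^ k * π n ^ k = 1 := by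
    intro k hk
    rw [← hcomm.mul_pow, ← map_mul, ← map_pow]
    refine (QuotientGroup.eq_one_iff _).2 ?_
    have h1 : (m * n) ^ k ∈ E.normalizerMonoidHom.ker := by rw [MonoidHom.mem_ker, map_pow]; exact hk
    rw [Subgroup.normalizerMonoidHom_ker] at h1
    exact Subgroup.subgroupOf_mono _ le_sup_right h1
  have hmo : (π m) ^ (orderOf h₀) = 1 := by
    rw [← map_pow, show m ^ orderOf h₀ = 1 from Subtype.ext (pow_orderOf_eq_one h₀), map_one]
  rcases h.card_mulAut.2 φ with h3 | h4
  · have e := hker 3 h3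
    have e3 : π n ^ 3 = π n := by rw [pow_three, hn2, mul_one]
    rw [e3] at e
    -- `π n` is a power of `π m`, so has odd order
    have e4 : π n = (π m ^ 3)⁻¹ := eq_inv_of_mul_eq_one_right e
    have e5 : π n ^ orderOf h₀ = 1 := by
      rw [e4, inv_pow, ← pow_mul, mul_comm, pow_mul, hmo, one_pow, inv_one]
    obtain ⟨r, hr⟩ := odd_orderOf hH hh₀
    rw [hr, pow_succ, pow_mul, pow_two, hn2, one_pow, one_mul] at e5
    exact hn1 e5
  · have e := hker 4 h4
    have e4 : π n ^ 4 = 1 := by rw [show 4 = 2 * 2 from rfl, pow_mul, pow_two (π n), hn2, one_pow]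
    rw [e4, mul_one] at e
    have e5 : π m ^ Nat.gcd (orderOf h₀) 4 = 1 := pow_gcd_eq_one.2 ⟨hmo, e⟩
    rw [show 4 = 2 ^ 2 from rfl, Nat.Coprime.gcd_eq_one
      ((odd_orderOf hH hh₀).coprime_two_right.pow_right 2), pow_one] at e5
    exact hm1 e5

/-- Fixed points modulo a subgroup containing squares and commutators. -/
theorem mem_of_fixed_mod [Finite S] {E N H : Subgroup S} (hHE : H ≤ Subgroup.normalizer (E : Set S))
    (hH : Odd (Nat.card H)) (hEH : ⁅E, H⁆ = E) (hNE : N ≤ E)
    (hsq : ∀ a ∈ E, a * a ∈ N) (hcom : ∀ a ∈ E, ∀ b ∈ E, a * b * a⁻¹ * b⁻¹ ∈ N) {z : S}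
    (hz : z ∈ E) (hfix : ∀ h ∈ H, h * z * h⁻¹ = z) : z ∈ N := by
  classical
  set K := N.subgroupOf E
  haveI hKn : K.Normal := ⟨fun n hn g => Subgroup.mem_subgroupOf.2 (by
    have := N.mul_mem (hcom g g.2 n (hNE (Subgroup.mem_subgroupOf.1 hn)))
      (Subgroup.mem_subgroupOf.1 hn)
    simpa using this)⟩
  let Q := E ⧸ K
  letI : CommGroup Q := { (inferInstance : Group Q) with
    mul_comm := fun a b => by
      induction a using QuotientGroup.induction_on with
      | H a =>
        induction b using QuotientGroup.induction_on with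
        | H b =>
          change ((a * b : E) : Q) = ((b * a : E) : Q)
          rw [QuotientGroup.eq, Subgroup.mem_subgroupOf]
          have := hcom (b : S)⁻¹ (inv_mem b.2) (a : S)⁻¹ (inv_mem a.2)
          simpa [mul_assoc] using this }
  haveI : Fintype H := Fintype.ofFinite H
  let cj : H → E → E := fun h e =>
    ⟨h * e * (h : S)⁻¹, (Subgroup.mem_normalizer_iff.1 (hHE h.2) e).1 e.2⟩
  let ψ : E →* Q :=
    { toFun := fun e => ∏ h : H, (cj h e : Q)
      map_one' := by
        refine Finset.prod_eq_one fun h _ => ?_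
        rw [show cj h 1 = 1 from Subtype.ext (by simp [cj])]
        rfl
      map_mul' := fun a b => by
        rw [← Finset.prod_mul_distrib]
        refine Finset.prod_congr rfl fun h _ => ?_
        rw [show cj h (a * b) = cj h a * cj h b from Subtype.ext (by simp [cj, mul_assoc])]
        rfl }
  have hψ : ∀ (k : H) (e : E), ψ (cj k e) = ψ e := by
    intro k e
    change ∏ h : H, (cj h (cj k e) : Q) = ∏ h : H, (cj h e : Q)
    refine Fintype.prod_equiv (Equiv.mulRight k) _ _ fun h => ?_
    congr 1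
    exact Subtype.ext (by simp [cj, mul_assoc])
  have hker : E ≤ ψ.ker.map E.subtype := by
    conv_lhs => rw [← hEH]
    rw [Subgroup.commutator_le]
    intro e he h hh
    refine ⟨⟨e, he⟩ * (cj ⟨h, hh⟩ ⟨e, he⟩)⁻¹, ?_, ?_⟩
    · rw [SetLike.mem_coe, MonoidHom.mem_ker, map_mul, map_inv, hψ, mul_inv_cancel]
    · simp [cj, commutatorElement_def, mul_assoc]
  obtain ⟨z', hz', hzz⟩ := hker hz
  obtain rfl : z' = ⟨z, hz⟩ := Subtype.ext hzz
  have h1 : ((⟨z, hz⟩ : E) : Q) ^ Nat.card H = 1 := by
    rw [← (MonoidHom.mem_ker.1 hz' : ψ ⟨z, hz⟩ = 1)]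
    change _ = ∏ h : H, (cj h ⟨z, hz⟩ : Q)
    rw [Nat.card_eq_fintype_card, Finset.prod_congr rfl fun h _ => (show (cj h ⟨z, hz⟩ : Q) =
      ((⟨z, hz⟩ : E) : Q) by rw [show cj h ⟨z, hz⟩ = ⟨z, hz⟩ from Subtype.ext (hfix h h.2)]),
      Finset.prod_const, Finset.card_univ]
  obtain ⟨m, hm⟩ := hH
  have h2 : ((⟨z, hz⟩ : E) : Q) ^ 2 = 1 := by
    rw [← QuotientGroup.mk_pow, QuotientGroup.eq_one_iff, Subgroup.mem_subgroupOf]
    simpa [pow_two] using hsq z hz
  rw [hm, pow_succ, pow_mul, h2, one_pow, one_mul] at h1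
  exact Subgroup.mem_subgroupOf.1 ((QuotientGroup.eq_one_iff _).1 h1)

end Cfsg.Agent.TwoSmall
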