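import Cfsg.Agent.TwoSmall.Main

/-!
Structure of a 2-group generated by its commutators with an odd order group, all of whose proper
invariant subgroups are small.
-/

set_option autoImplicit false

open Cfsg
open scoped commutatorElement

namespace Cfsg.Agent.TwoSmall

variable {S : Type*} [Group S] [Finite S]

theorem quat_not_comm : ∃ g h : QuaternionGroup 2, g * h ≠ h * g := by decide

theorem centralizes_of_two {V Y H : Subgroup S} (hV : Nat.card V = 4) (hY : Nat.card Y = 2)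
    (hYV : Y ≤ V) (hH : Odd (Nat.card H)) (hHV : H ≤ Subgroup.normalizer (V : Set S))
    (hHY : H ≤ Subgroup.normalizer (Y : Set S)) : H ≤ Subgroup.centralizer (V : Set S) := by
  obtain ⟨u, hu1, huu⟩ := (Nat.card_eq_two_iff' (1 : Y)).1 hY
  intro h hh
  refine Subgroup.mem_centralizer_iff.2 fun v hv => ?_
  have hmem : h * u * h⁻¹ ∈ Y := (Subgroup.mem_normalizer_iff.1 (hHY hh) u).1 u.2
  have hne : (⟨h * u * h⁻¹, hmem⟩ : Y) ≠ 1 := fun e =>
    hu1 (Subtype.ext (conj_eq_one_iff.1 (congrArg Subtype.val e)))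
  have hfix : Commute h (u : S) :=
    mul_inv_eq_iff_eq_mul.1 (congrArg Subtype.val (huu _ hne))
  exact (commute_of_fix_four hV (hHV hh) (odd_orderOf hH hh) (hYV u.2)
    (fun e => hu1 (Subtype.ext e)) hfix hv).eq.symm

theorem Atom.four_of_comm {E : Subgroup S} (h : Atom E) (hc : IsMulCommutative E) :
    Nat.card E = 4 ∧ ∀ e ∈ E, e * e = 1 := by
  rcases h with ⟨-, h4, he⟩ | ⟨⟨e⟩⟩
  · exact ⟨h4, he⟩
  · obtain ⟨g, k, hgk⟩ := quat_not_comm
    refine absurd (e.symm.injective ?_) hgk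
    rw [map_mul, map_mul]
    exact hc.is_comm.comm (e.symm g) (e.symm k)

/-- The structure of the minimal case. -/
theorem special_of_minimal {E H : Subgroup S} (hE : IsPGroup 2 E) (hH : Odd (Nat.card H))
    (hHE : H ≤ Subgroup.normalizer (E : Set S)) (hEH : ⁅E, H⁆ = E)
    (hsmall : ∀ Y : Subgroup S, Y ≤ E → Y ≠ E → H ≤ Subgroup.normalizer (Y : Set S) → Small Y)
    (hnc : ¬ IsMulCommutative E) :
    phi E = E ⊓ Subgroup.centralizer (E : Set S) ∧
      ⁅E, E⁆ = E ⊓ Subgroup.centralizer (E : Set S) ∧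
      (Nat.card ↥(E ⊓ Subgroup.centralizer (E : Set S)) = 2 ∨
        Nat.card ↥(E ⊓ Subgroup.centralizer (E : Set S)) = 4) := by
  haveI : Fact (Nat.Prime 2) := ⟨Nat.prime_two⟩
  set Φ := phi E with hΦ
  set Zc := E ⊓ Subgroup.centralizer (E : Set S) with hZc
  have hEne : E ≠ ⊥ := fun h => hnc (by rw [h]; exact Modules.comm_bot)
  have hΦE : Φ ≤ E := phi_le E
  have hΦne : Φ ≠ E := by
    intro e
    have h1 : frattini E = ⊤ := Subgroup.map_injective E.subtype_injective (by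
      rw [← MonoidHom.range_eq_map, Subgroup.range_subtype]; exact e)
    have h2 := PGroup.eq_top_of_sup_frattini (P := E) (H := ⊥) (by rw [h1, bot_sup_eq])
    exact hEne (eq_bot_iff.2 fun a ha => Subgroup.mem_bot.2 (congrArg Subtype.val
      (Subgroup.mem_bot.1 (h2.ge (Subgroup.mem_top ⟨a, ha⟩)))))
  have hΦ2 : IsPGroup 2 Φ := hE.to_le hΦE
  have hHΦ : H ≤ Subgroup.normalizer (Φ : Set S) := hHE.trans (normalizer_le_normalizer_phi E)
  have hΦsmall := hsmall Φ hΦE hΦne hHΦ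
  have hEΦ : E ≤ Subgroup.normalizer (Φ : Set S) :=
    Subgroup.le_normalizer.trans (normalizer_le_normalizer_phi E)
  -- the Frattini subgroup is central
  have hΦC : E ≤ Subgroup.centralizer (Φ : Set S) := by
    by_cases hfix : H ≤ Subgroup.centralizer (Φ : Set S)
    · exact le_centralizer_of_fixed hEH hEΦ hfix
    have hat := hΦsmall.atom hΦ2 hH hHΦ hfix
    have hle := hat.le_sup_centralizer hE hEΦ hH hHΦ hHE hfix
    set N := Subgroup.normalizer (Φ : Set S)
    haveI : ((Subgroup.centralizer (Φ : Set S)).subgroupOf N).Normal := inferInstance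
    have key : (Subgroup.centralizer (Φ : Set S)).subgroupOf E ⊔ frattini E = ⊤ := by
      refine eq_top_iff.2 fun e _ => ?_
      have hmem : (⟨e, hEΦ e.2⟩ : N) ∈ Φ.subgroupOf N ⊔
          (Subgroup.centralizer (Φ : Set S)).subgroupOf N := by
        rw [← Subgroup.subgroupOf_sup Subgroup.le_normalizer (Subgroup.centralizer_le_normalizer _)]
        exact Subgroup.mem_subgroupOf.2 (hle e.2)
      obtain ⟨a, ha, b, hb, hab⟩ := Subgroup.mem_sup_of_normal_right.1 hmem
      obtain ⟨f, hf, hfa⟩ := Subgroup.mem_subgroupOf.1 ha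
      have e' : (a : S) * (b : S) = (e : S) := congrArg Subtype.val hab
      have hbE : (b : S) ∈ E := by
        rw [show (b : S) = (a : S)⁻¹ * e by rw [← e']; group]
        exact mul_mem (inv_mem (hΦE (Subgroup.mem_subgroupOf.1 ha))) e.2
      have e2 : f * (⟨b, hbE⟩ : E) = e := Subtype.ext (by
        change ((f : E) : S) * (b : S) = _
        rw [show ((f : E) : S) = (a : S) from hfa, e'])
      rw [← e2]
      exact mul_mem (Subgroup.mem_sup_right hf)
        (Subgroup.mem_sup_left (Subgroup.mem_subgroupOf.2 hb))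
    exact Subgroup.subgroupOf_eq_top.1 (PGroup.eq_top_of_sup_frattini key)
  have hΦZ : Φ ≤ Zc := fun f hf => ⟨hΦE hf, Subgroup.le_centralizer_iff.1 hΦC hf⟩
  have hZcomm : IsMulCommutative Zc := ⟨⟨fun a b => Subtype.ext
    (Subgroup.mem_centralizer_iff.1 (Subgroup.mem_inf.1 b.2).2 a (Subgroup.mem_inf.1 a.2).1)⟩⟩
  have hZne : Zc ≠ E := fun e => hnc (e ▸ hZcomm)
  have hHZ : H ≤ Subgroup.normalizer (Zc : Set S) := by
    intro h hh
    rw [Subgroup.mem_normalizer_iff_map_conj_eq, hZc,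
      Subgroup.map_inf _ _ _ (MulAut.conj h).injective]
    have hh' : E.map (MulAut.conj h).toMonoidHom = E :=
      Subgroup.mem_normalizer_iff_map_conj_eq.1 (hHE hh)
    have hc' := PSolv.map_centralizer_equiv (MulAut.conj h) E
    rw [hh'] at hc'
    exact congrArg₂ (· ⊓ ·) hh' hc'
  have hZsmall := hsmall Zc inf_le_left hZne hHZ
  -- commutators have order two
  set D : Subgroup S := ⁅E, E⁆ with hD
  have hDΦ : D ≤ Φ := Subgroup.commutator_le.2 fun a ha b hb => by
    rw [commutatorElement_def]; exact comm_mem_phi hE ha hb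
  let K : Subgroup S :=
    { carrier := {x | x ∈ Zc ∧ x * x = 1}
      one_mem' := ⟨one_mem _, one_mul 1⟩
      mul_mem' := fun {a b} ha hb => ⟨mul_mem ha.1 hb.1, by
        rw [show a * b * (a * b) = a * (b * a) * b by group, comm_apply hZcomm hb.1 ha.1,
          show a * (a * b) * b = (a * a) * (b * b) by group, ha.2, hb.2, one_mul]⟩
      inv_mem' := fun {a} ha => ⟨inv_mem ha.1, by rw [← mul_inv_rev, ha.2, inv_one]⟩ }
  have hDK : D ≤ K := by
    refine Subgroup.commutator_le.2 fun a ha b hb => ?_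
    rw [commutatorElement_def]
    set c := a * b * a⁻¹ * b⁻¹ with hc
    have hcZ : c ∈ Zc := hΦZ (comm_mem_phi hE ha hb)
    have ha2 := Subgroup.mem_centralizer_iff.1 (Subgroup.mem_inf.1 (hΦZ (sq_mem_phi hE ha))).2 b hb
    have hca := Subgroup.mem_centralizer_iff.1 (Subgroup.mem_inf.1 hcZ).2 a ha
    refine ⟨hcZ, ?_⟩
    calc c * c = c * (a * b * a⁻¹ * b⁻¹) := rfl
      _ = (c * a) * b * a⁻¹ * b⁻¹ := by group
      _ = (a * c) * b * a⁻¹ * b⁻¹ := by rw [hca]
      _ = (a * a) * b * (a * a)⁻¹ * b⁻¹ := by rw [hc]; group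
      _ = 1 := by rw [← ha2]; group
  have hDne : D ≠ ⊥ := fun h => hnc ⟨⟨fun a b => Subtype.ext
    (Subgroup.mem_centralizer_iff.1 ((Subgroup.commutator_eq_bot_iff_le_centralizer.1 h) b.2) a a.2)⟩⟩
  have hΦcomm : IsMulCommutative Φ :=
    ⟨⟨fun a b => Subtype.ext (comm_apply hZcomm (hΦZ a.2) (hΦZ b.2))⟩⟩
  have hDcard : 2 ≤ Nat.card D := (Subgroup.one_lt_card_iff_ne_bot D).2 hDne
  have hHD : H ≤ Subgroup.normalizer (D : Set S) := fun h hh =>
    Coprime.normalizer_inf_le_normalizer_commutator E E (Subgroup.mem_inf.2 ⟨hHE hh, hHE hh⟩)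
  have htwo : ∀ V : Subgroup S, Nat.card V = 4 → D ≤ V → D ≠ V →
      H ≤ Subgroup.normalizer (V : Set S) → H ≤ Subgroup.centralizer (V : Set S) := by
    intro V hV hDV hne hHV
    refine centralizes_of_two hV ?_ hDV hH hHV hHD
    have h1 : Nat.card D ∣ 4 := hV ▸ Subgroup.card_dvd_of_le hDV
    have h2 : Nat.card D ≠ 4 := fun e => hne (Subgroup.eq_of_le_of_card_ge hDV (by omega))
    have := Nat.le_of_dvd (by norm_num) h1
    interval_cases hh : Nat.card D <;> omega
  have hΦD : Φ = D := by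
    refine le_antisymm ?_ hDΦ
    by_cases hfix : H ≤ Subgroup.centralizer (Φ : Set S)
    · have hcD : ∀ a ∈ E, ∀ b ∈ E, a * b * a⁻¹ * b⁻¹ ∈ D := fun a ha b hb =>
        Subgroup.commutator_mem_commutator ha hb
      let Q : Subgroup S :=
        { carrier := {e | e ∈ E ∧ e * e ∈ D}
          one_mem' := ⟨one_mem _, by rw [one_mul]; exact one_mem _⟩
          mul_mem' := fun {a b} ha hb => ⟨mul_mem ha.1 hb.1, by
            have := mul_mem (mul_mem ha.2 (hcD a⁻¹ (inv_mem ha.1) b hb.1)) hb.2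
            convert this using 1
            group⟩
          inv_mem' := fun {a} ha => ⟨inv_mem ha.1, by rw [← mul_inv_rev]; exact inv_mem ha.2⟩ }
      have hEQ : E ≤ Q := by
        conv_lhs => rw [← hEH]
        refine Subgroup.commutator_le.2 fun u hu h hh => ?_
        have hv : h * u⁻¹ * h⁻¹ ∈ E := (Subgroup.mem_normalizer_iff.1 (hHE hh) _).1 (inv_mem hu)
        rw [commutatorElement_def, show u * h * u⁻¹ * h⁻¹ = u * (h * u⁻¹ * h⁻¹) by group]
        refine ⟨mul_mem hu hv, ?_⟩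
        set v := h * u⁻¹ * h⁻¹ with hvdef
        have hfx : Commute h (u * u)⁻¹ :=
          (Subgroup.mem_centralizer_iff.1 (hfix hh) _ (inv_mem (sq_mem_phi hE hu))).symm
        have hv2 : v * v = (u * u)⁻¹ := by
          rw [hvdef, show h * u⁻¹ * h⁻¹ * (h * u⁻¹ * h⁻¹) = h * (u * u)⁻¹ * h⁻¹ by group,
            hfx.eq, mul_inv_cancel_right]
        have hc := hcD u⁻¹ (inv_mem hu) v hv
        have hcc := Subgroup.mem_centralizer_iff.1 (Subgroup.mem_inf.1 (hDK hc).1).2 (u * u)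
          (mul_mem hu hu)
        have e : u * v * (u * v) = u⁻¹ * v * u⁻¹⁻¹ * v⁻¹ := by
          calc u * v * (u * v) = (u * u) * (u⁻¹ * v * u⁻¹⁻¹ * v⁻¹) * (v * v) := by group
            _ = (u⁻¹ * v * u⁻¹⁻¹ * v⁻¹) * (u * u) * (v * v) := by rw [hcc]
            _ = u⁻¹ * v * u⁻¹⁻¹ * v⁻¹ := by rw [hv2, mul_inv_cancel_right]
        rw [e]; exact hc
      rw [hΦ, phi, PGroup.frattini_eq_closure_sq hE, MonoidHom.map_closure, Subgroup.closure_le]
      rintro _ ⟨_, ⟨x, rfl⟩, rfl⟩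
      change ((x ^ 2 : E) : S) ∈ D
      rw [SubmonoidClass.coe_pow, pow_two]
      exact (hEQ x.2).2
    · have h4 := ((hΦsmall.atom hΦ2 hH hHΦ hfix).four_of_comm hΦcomm).1
      by_contra hne
      exact hfix (htwo Φ h4 hDΦ (fun e => hne e.ge) hHΦ)
  have hΦexp : ∀ a ∈ Φ, a * a = 1 := fun a ha => (hDK (hΦD ▸ ha)).2
  have hΦcard : Nat.card Φ ≤ 4 := hΦsmall.card_le_four hΦ2 le_rfl hΦcomm fun a ha => by
    rw [show (4 : ℕ) = 2 + 2 by norm_num, pow_add, pow_two, hΦexp a ha, mul_one]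
  have hZΦ : Zc = Φ := by
    refine le_antisymm ?_ hΦZ
    by_cases hfix : H ≤ Subgroup.centralizer (Zc : Set S)
    · exact fun z hz => mem_of_fixed_mod hHE hH hEH hΦE (fun a ha => sq_mem_phi hE ha)
        (fun a ha b hb => comm_mem_phi hE ha hb) hz.1 fun h hh =>
        mul_inv_eq_iff_eq_mul.2 (Subgroup.mem_centralizer_iff.1 (hfix hh) z hz).symm
    · have h4 := ((hZsmall.atom (hE.to_le inf_le_left) hH hHZ hfix).four_of_comm hZcomm).1
      by_contra hne
      exact hfix (htwo Zc h4 (hΦD ▸ hΦZ) (fun e => hne (hΦD.trans e).ge) hHZ)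
  refine ⟨hZΦ.symm, by rw [hZΦ, hΦD], ?_⟩
  obtain ⟨k, hk⟩ := IsPGroup.iff_card.1 hΦ2
  rw [hZΦ]
  have h2 : 2 ≤ Nat.card Φ := hΦD ▸ hDcard
  rw [hk] at h2 hΦcard ⊢
  rcases k with _ | _ | _ | k
  · norm_num at h2
  · exact Or.inl rfl
  · exact Or.inr rfl
  · exfalso
    have : 2 ^ 3 ≤ 2 ^ (k + 3) := Nat.pow_le_pow_right (by norm_num) (by omega)
    omega

end Cfsg.Agent.TwoSmall
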